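import Cfsg.Agent.H9.Iso8.Forms

/-!
Isometries of orthogonal sums and unipotent isometries of two-power order.
-/

set_option autoImplicit false
set_option linter.unusedSectionVars false

namespace Cfsg.Agent.H9.Iso8

open QuadraticMap hiding sq
open Module

variable {F : Type*} [Field F] {V V' : Type*} [AddCommGroup V] [Module F V] [AddCommGroup V']
  [Module F V'] {Q : QuadraticForm F V} {Q' : QuadraticForm F V'}

/-- Pairs of isometries act on the orthogonal sum. -/
noncomputable def prodHom (Q : QuadraticForm F V) (Q' : QuadraticForm F V') :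
    H5.orth Q × H5.orth Q' →* H5.orth (Q.prod Q') where
  toFun g := ⟨(g.1 : V ≃ₗ[F] V).prodCongr (g.2 : V' ≃ₗ[F] V'), fun x => by
    simp only [QuadraticMap.prod_apply, LinearEquiv.prodCongr_apply]
    rw [g.1.2, g.2.2]⟩
  map_one' := H5.orth_ext fun x => rfl
  map_mul' _ _ := H5.orth_ext fun x => by rw [H5.orth_mul_apply]; rfl

theorem prodHom_injective : Function.Injective (prodHom Q Q') := by
  intro g h e
  refine Prod.ext (H5.orth_ext fun x => ?_) (H5.orth_ext fun y => ?_)
  · exact congrArg (fun k : H5.orth (Q.prod Q') => ((k : (V × V') ≃ₗ[F] V × V') (x, 0)).1) e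
  · exact congrArg (fun k : H5.orth (Q.prod Q') => ((k : (V × V') ≃ₗ[F] V × V') (0, y)).2) e

/-- Transport along an isometry. -/
noncomputable def transHom (e : V ≃ₗ[F] V') (he : ∀ v, Q' (e v) = Q v) : H5.orth Q →* H5.orth Q' where
  toFun g := ⟨(e.symm.trans (g : V ≃ₗ[F] V)).trans e, fun x => by
    show Q' (e ((g : V ≃ₗ[F] V) (e.symm x))) = Q' x
    rw [he, g.2, ← he, e.apply_symm_apply]⟩
  map_one' := H5.orth_ext fun x => e.apply_symm_apply x
  map_mul' g h := H5.orth_ext fun x => by
    rw [H5.orth_mul_apply]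
    show e ((g * h : H5.orth Q).1 (e.symm x)) = e (g.1 (e.symm (e (h.1 (e.symm x)))))
    rw [e.symm_apply_apply, H5.orth_mul_apply]

theorem transHom_apply (e : V ≃ₗ[F] V') (he : ∀ v, Q' (e v) = Q v) (g : H5.orth Q) (v : V) :
    (transHom e he g : V' ≃ₗ[F] V') (e v) = e ((g : V ≃ₗ[F] V) v) := by
  show e ((g : V ≃ₗ[F] V) (e.symm (e v))) = _
  rw [e.symm_apply_apply]

theorem transHom_injective (e : V ≃ₗ[F] V') (he : ∀ v, Q' (e v) = Q v) :
    Function.Injective (transHom e he) := by
  intro g h hgh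
  refine H5.orth_ext fun x => e.injective ?_
  rw [← transHom_apply e he, ← transHom_apply e he, hgh]

theorem transHom_refl (e : V ≃ₗ[F] V') (he : ∀ v, Q' (e v) = Q v) (v : V) :
    transHom e he (H5.refl Q v) = H5.refl Q' (e v) := by
  refine H5.orth_ext fun y => ?_
  obtain ⟨x, rfl⟩ := e.surjective y
  rw [transHom_apply, H5.refl_apply, H5.refl_apply, map_sub, map_smul, he]
  simp only [polar, ← map_add, he]

theorem prodHom_refl_right (v : V') :
    prodHom Q Q' (1, H5.refl Q' v) = H5.refl (Q.prod Q') (0, v) := by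
  refine H5.orth_ext fun x => ?_
  show (x.1, (H5.refl Q' v : V' ≃ₗ[F] V') x.2) = _
  have hp : polar (Q.prod Q') (0, v) x = polar Q' v x.2 := by
    simp [polar, QuadraticMap.prod_apply]; ring
  rw [H5.refl_apply, H5.refl_apply, hp]
  ext <;> simp [QuadraticMap.prod_apply]

/-- Translation in a hyperbolic plane added to the space. -/
noncomputable def shearLin (Q : QuadraticForm F V) (z : V) : V × (F × F) →ₗ[F] V × (F × F) :=
  LinearMap.prod
    (LinearMap.fst F V (F × F) +
      ((LinearMap.snd F F F).comp (LinearMap.snd F V (F × F))).smulRight z)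
    (LinearMap.prod
      ((LinearMap.fst F F F).comp (LinearMap.snd F V (F × F)) +
        (polarBilin Q z).comp (LinearMap.fst F V (F × F)) +
        Q z • ((LinearMap.snd F F F).comp (LinearMap.snd F V (F × F))))
      ((LinearMap.snd F F F).comp (LinearMap.snd F V (F × F))))

theorem shearLin_apply (z : V) (x : V × (F × F)) :
    shearLin Q z x = (x.1 + x.2.2 • z, x.2.1 + polar Q z x.1 + Q z * x.2.2, x.2.2) := rfl

section CharTwo

variable [CharP F 2]

theorem add_self_vec (Q : QuadraticForm F V) (v : V) : v + v = 0 := by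
  rw [← two_smul F v, CharTwo.two_eq_zero, zero_smul]

theorem shearLin_shearLin (z w : V) (x : V × (F × F)) :
    shearLin Q z (shearLin Q w x) = shearLin Q (z + w) x := by
  simp only [shearLin_apply]
  refine Prod.ext (by module) (Prod.ext ?_ rfl)
  simp only [polar_add_right, polar_add_left, polar_smul_right, QuadraticMap.map_add Q,
    smul_eq_mul]
  ring

theorem shearLin_zero (x : V × (F × F)) : shearLin Q 0 x = x := by
  simp [shearLin_apply, polar]

/-- The shear as an isometry. -/
noncomputable def shear (Q : QuadraticForm F V) (z : V) : H5.orth (Q.prod (hyp F)) :=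
  ⟨{ toLinearMap := shearLin Q z
     invFun := shearLin Q z
     left_inv := fun x => by
      show shearLin Q z (shearLin Q z x) = x
      rw [shearLin_shearLin, add_self_vec Q, shearLin_zero]
     right_inv := fun x => by
      show shearLin Q z (shearLin Q z x) = x
      rw [shearLin_shearLin, add_self_vec Q, shearLin_zero] }, fun x => by
    show (Q.prod (hyp F)) (shearLin Q z x) = _
    simp only [shearLin_apply, QuadraticMap.prod_apply, hyp_apply, QuadraticMap.map_add Q,
      QuadraticMap.map_smul, smul_eq_mul, polar_smul_right, polar_comm Q z x.1]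
    linear_combination (x.2.2 * (x.2.2 * Q z) + x.2.2 * polar Q x.1 z) *
      (CharTwo.two_eq_zero (R := F))⟩

theorem shear_apply (z : V) (x : V × (F × F)) :
    (shear Q z : (V × (F × F)) ≃ₗ[F] V × (F × F)) x =
      (x.1 + x.2.2 • z, x.2.1 + polar Q z x.1 + Q z * x.2.2, x.2.2) := rfl

theorem shear_mul (z w : V) : shear Q z * shear Q w = shear Q (z + w) :=
  H5.orth_ext fun x => by rw [H5.orth_mul_apply]; exact shearLin_shearLin z w x

theorem shear_ne_one {z : V} (hz : z ≠ 0) : shear Q z ≠ 1 := fun h => hz <| by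
  have := congrArg (fun k : H5.orth (Q.prod (hyp F)) =>
    ((k : (V × (F × F)) ≃ₗ[F] V × (F × F)) (0, 0, 1)).1) h
  simpa [shear_apply] using this

/-- The partial orbit sum. -/
noncomputable def orbSum (R : H5.orth Q) (z : V) (j : ℕ) : V :=
  ∑ i ∈ Finset.range j, ((R ^ i : H5.orth Q) : V ≃ₗ[F] V) z

/-- The lifted isometry of twice the order. -/
noncomputable def bump (R : H5.orth Q) (z : V) : H5.orth (Q.prod (hyp F)) :=
  shear Q z * prodHom Q (hyp F) (R, 1)

theorem orth_map_eq (R : H5.orth Q) (x : V) : Q ((R : V ≃ₗ[F] V) x) = Q x := R.2 x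

theorem prodHom_mul_shear (R : H5.orth Q) (w : V) :
    prodHom Q (hyp F) (R, 1) * shear Q w =
      shear Q ((R : V ≃ₗ[F] V) w) * prodHom Q (hyp F) (R, 1) := by
  refine H5.orth_ext fun x => ?_
  rw [H5.orth_mul_apply, H5.orth_mul_apply, shear_apply]
  refine Prod.ext ?_ (Prod.ext ?_ rfl)
  · show (R : V ≃ₗ[F] V) (x.1 + x.2.2 • w) = (R : V ≃ₗ[F] V) x.1 + x.2.2 • (R : V ≃ₗ[F] V) w
    rw [map_add, map_smul]
  · show x.2.1 + polar Q w x.1 + Q w * x.2.2 =
      x.2.1 + polar Q ((R : V ≃ₗ[F] V) w) ((R : V ≃ₗ[F] V) x.1) + Q ((R : V ≃ₗ[F] V) w) * x.2.2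
    simp only [polar, ← map_add, orth_map_eq]

theorem bump_pow (R : H5.orth Q) (z : V) (j : ℕ) :
    bump R z ^ j = shear Q (orbSum R z j) * prodHom Q (hyp F) (R ^ j, 1) := by
  induction j with
  | zero =>
    rw [pow_zero, pow_zero, orbSum, Finset.sum_range_zero,
      show ((1 : H5.orth Q), (1 : H5.orth (hyp F))) = 1 from rfl, map_one, mul_one]
    exact (H5.orth_ext fun x => shearLin_zero x).symm
  | succ j ih =>
    rw [pow_succ', ih, bump, mul_assoc, ← mul_assoc (prodHom Q (hyp F) (R, 1)), prodHom_mul_shear,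
      mul_assoc, ← map_mul, ← mul_assoc, shear_mul, Prod.mk_mul_mk, one_mul, ← pow_succ']
    congr 2
    rw [orbSum, orbSum, Finset.sum_range_succ', map_sum, add_comm]
    congr 1
    refine Finset.sum_congr rfl fun i _ => ?_
    rw [pow_succ', H5.orth_mul_apply]

theorem bump_pow_apply_top (R : H5.orth Q) (z : V) (j : ℕ) :
    ((bump R z ^ j : H5.orth (Q.prod (hyp F))) : (V × (F × F)) ≃ₗ[F] V × (F × F)) (0, 0, 1) =
      (orbSum R z j, Q (orbSum R z j), 1) := by
  rw [bump_pow, H5.orth_mul_apply]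
  show (shear Q (orbSum R z j) : (V × (F × F)) ≃ₗ[F] V × (F × F))
    ((((R ^ j : H5.orth Q)) : V ≃ₗ[F] V) 0, (0, 1)) = _
  rw [map_zero, shear_apply]
  simp [polar]

theorem orderOf_bump (R : H5.orth Q) (z : V) (k : ℕ) (hR : R ^ 2 ^ k = 1)
    (hz : orbSum R z (2 ^ k) ≠ 0) : orderOf (bump R z) = 2 ^ (k + 1) := by
  have hk : bump R z ^ 2 ^ k = shear Q (orbSum R z (2 ^ k)) := by
    rw [bump_pow, hR, show ((1 : H5.orth Q), (1 : H5.orth (hyp F))) = 1 from rfl, map_one, mul_one]
  refine orderOf_eq_prime_pow (by rw [hk]; exact shear_ne_one hz) ?_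
  rw [pow_succ, pow_mul, hk, sq, shear_mul, add_self_vec Q]
  exact H5.orth_ext fun x => shearLin_zero x

variable [FiniteDimensional F V]

/-- An isometry of order four of a plane plus a hyperbolic plane, with its non-vanishing orbit sum. -/
theorem exists_order_four (hQ : (polarBilin Q).Nondegenerate) (hv : ∃ v, Q v ≠ 0) :
    ∃ (R : H5.orth Q) (z : V), R ^ 2 = 1 ∧ R ≠ 1 ∧ orbSum R z 2 ≠ 0 ∧
      orderOf (bump R z) = 4 ∧ orbSum (bump R z) (0, 0, 1) 4 ≠ 0 := by
  obtain ⟨v, hv⟩ := hv
  obtain ⟨z, hz⟩ : ∃ z, polar Q v z ≠ 0 := by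
    by_contra! h
    exact hv (by rw [hQ.1 v h, QuadraticMap.map_zero])
  have hR : H5.refl Q v ^ 2 = 1 := by rw [sq, H5.refl_mul_self]
  set c := (Q v)⁻¹ * polar Q v z with hc
  have hRz : (H5.refl Q v : V ≃ₗ[F] V) z = z + c • v := by
    rw [H5.refl_apply, sub_eq_add_neg, ← neg_smul, CharTwo.neg_eq]
  have hS : orbSum (H5.refl Q v) z 2 = c • v := by
    rw [orbSum, Finset.sum_range_succ, Finset.sum_range_succ, Finset.sum_range_zero, zero_add,
      pow_zero, pow_one, hRz, show ((1 : H5.orth Q) : V ≃ₗ[F] V) z = z from rfl, ← add_assoc,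
      add_self_vec Q, zero_add]
  have hcv : c • v ≠ 0 := smul_ne_zero (mul_ne_zero (inv_ne_zero hv) hz)
    (fun h => hv (by rw [h, QuadraticMap.map_zero]))
  refine ⟨H5.refl Q v, z, hR, fun h => ?_, hS ▸ hcv, orderOf_bump _ z 1 hR (by rw [pow_one, hS]; exact hcv), ?_⟩
  · rw [h] at hRz
    refine hcv ?_
    simpa using hRz
  · have h3 : orbSum (H5.refl Q v) z 3 = c • v + z := by
      rw [orbSum, Finset.sum_range_succ, ← orbSum, hS, hR]
      rfl
    have h1 : orbSum (H5.refl Q v) z 1 = z := by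
      rw [orbSum, Finset.sum_range_succ, Finset.sum_range_zero, zero_add, pow_zero]
      rfl
    rw [orbSum]
    simp only [bump_pow_apply_top, Finset.sum_range_succ, Finset.sum_range_zero, zero_add]
    rw [h1, hS, h3, show orbSum (H5.refl Q v) z 0 = 0 from Finset.sum_range_zero _]
    intro h
    have h2 := congrArg (fun x : V × (F × F) => x.2.1) h
    simp only [Prod.fst_add, Prod.snd_add, QuadraticMap.map_zero, Prod.fst_zero, Prod.snd_zero,
      zero_add] at h2
    rw [add_comm (c • v) z, QuadraticMap.map_add Q] at h2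
    have h4 : polar Q z (c • v) = 0 := by
      linear_combination h2 - (Q z + Q (c • v)) * (CharTwo.two_eq_zero (R := F))
    rw [polar_smul_right, polar_comm, smul_eq_mul] at h4
    rcases mul_eq_zero.1 h4 with h' | h'
    · exact hcv (by rw [h', zero_smul])
    · exact hz h'

end CharTwo

end Cfsg.Agent.H9.Iso8
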