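import Cfsg.Agent.H67.OrthTypes
import Cfsg.Agent.H5.Reflection
import Mathlib.FieldTheory.Finite.Extension
import Mathlib.RingTheory.Trace.Basic

/-!
Plus and minus quadratic spaces in characteristic two and their cyclic tori.
-/

set_option autoImplicit false
set_option linter.unusedSectionVars false
set_option linter.style.haveILetI false

namespace Cfsg.Agent.H9.Iso8

open QuadraticMap hiding sq
open Module

variable {F : Type*} [Field F] [Fintype F]

section Types

variable {V V' V'' : Type*} [AddCommGroup V] [Module F V] [AddCommGroup V'] [Module F V']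
  [AddCommGroup V''] [Module F V''] [FiniteDimensional F V] [FiniteDimensional F V']
  [FiniteDimensional F V'']

/-- A plus type space of dimension `2 * m`. -/
def IsPlus (Q : QuadraticForm F V) (m : ℕ) : Prop :=
  (polarBilin Q).Nondegenerate ∧ finrank F V = 2 * m ∧ H67.HasSing Q m

/-- A minus type space of dimension `2 * m`. -/
def IsMinus (Q : QuadraticForm F V) (m : ℕ) : Prop :=
  (polarBilin Q).Nondegenerate ∧ finrank F V = 2 * m ∧ ¬ H67.HasSing Q m

theorem IsPlus.prod {Q : QuadraticForm F V} {Q' : QuadraticForm F V'} {l j : ℕ}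
    (h : IsPlus Q l) (h' : IsPlus Q' j) : IsPlus (Q.prod Q') (l + j) :=
  ⟨H67.prod_nondegenerate h.1 h'.1, by rw [finrank_prod, h.2.1, h'.2.1]; ring,
    H67.hasSing_prod h.2.2 h'.2.2⟩

theorem IsMinus.prod_plus {Q : QuadraticForm F V} {Q' : QuadraticForm F V'} {l j : ℕ}
    (h : IsMinus Q l) (h' : IsPlus Q' j) : IsMinus (Q.prod Q') (l + j) :=
  ⟨H67.prod_nondegenerate h.1 h'.1, by rw [finrank_prod, h.2.1, h'.2.1]; ring,
    fun hs => h.2.2 (H67.hasSing_of_prod h.1 h'.1 h.2.1 h'.2.1 h'.2.2 hs)⟩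

theorem IsMinus.isom {Q : QuadraticForm F V} {Q' : QuadraticForm F V'} {m : ℕ}
    (h : IsMinus Q m) (h' : IsMinus Q' m) : ∃ g : V ≃ₗ[F] V', ∀ v, Q' (g v) = Q v :=
  H67.isom_of_type h.1 h'.1 h.2.1 h'.2.1 (iff_of_false h.2.2 h'.2.2)

theorem prod_comm_apply (Q : QuadraticForm F V) (Q' : QuadraticForm F V') (v : V × V') :
    Q'.prod Q (LinearEquiv.prodComm F V V' v) = Q.prod Q' v := by
  simp [QuadraticMap.prod_apply, add_comm]

theorem IsMinus.plus_prod {Q : QuadraticForm F V} {Q' : QuadraticForm F V'} {l j : ℕ}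
    (h : IsPlus Q j) (h' : IsMinus Q' l) : IsMinus (Q.prod Q') (j + l) := by
  obtain ⟨hn, hd, hs⟩ := h'.prod_plus h
  refine ⟨H67.prod_nondegenerate h.1 h'.1, by rw [finrank_prod, h.2.1, h'.2.1]; ring, fun h0 => hs ?_⟩
  rw [add_comm l j]
  exact h0.of_isom _ (prod_comm_apply Q Q')

theorem IsMinus.prod_same [CharP F 2] {Q : QuadraticForm F V} {Q' : QuadraticForm F V'} {l : ℕ}
    (h : IsMinus Q l) (h' : IsMinus Q' l) : IsPlus (Q.prod Q') (l + l) := by
  obtain ⟨g, hg⟩ := h.isom h'
  refine ⟨H67.prod_nondegenerate h.1 h'.1, by rw [finrank_prod, h.2.1, h'.2.1]; ring, ?_⟩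
  have := H67.hasSing_of_range (Q := Q.prod Q') (LinearMap.prod LinearMap.id g.toLinearMap)
    (fun x y e => congrArg Prod.fst e)
    (fun u => by simp [QuadraticMap.prod_apply, hg, CharTwo.add_self_eq_zero])
  rwa [h.2.1, two_mul] at this

theorem exists_ne_zero {Q : QuadraticForm F V} (hQ : (polarBilin Q).Nondegenerate) {m : ℕ}
    (hm : finrank F V = 2 * m) (h1 : 1 ≤ m) : ∃ v, Q v ≠ 0 := by
  by_contra! hall
  haveI : Nontrivial V := nontrivial_of_finrank_pos (R := F) (by omega)
  obtain ⟨v, hv⟩ := exists_ne (0 : V)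
  exact hv (hQ.1 v fun y => by simp [polarBilin, polar, hall])

end Types

/-- The hyperbolic plane. -/
noncomputable def hyp (F : Type*) [Field F] : QuadraticForm F (F × F) :=
  linMulLin (LinearMap.fst F F F) (LinearMap.snd F F F)

omit [Fintype F] in
@[simp] theorem hyp_apply (v : F × F) : hyp F v = v.1 * v.2 := by simp [hyp]

theorem hyp_isPlus : IsPlus (hyp F) 1 := by
  have hp : ∀ x y : F × F, polar (hyp F) x y = x.1 * y.2 + y.1 * x.2 := fun x y => by
    simp [polar]; ring
  have hn : ∀ x, (∀ y, polar (hyp F) x y = 0) → x = 0 := fun x hx =>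
    Prod.ext (by simpa [hp] using hx (0, 1)) (by simpa [hp] using hx (1, 0))
  refine ⟨⟨hn, fun y hy => hn y fun x => (polar_comm _ _ _).trans (hy x)⟩, by simp, ?_⟩
  have := H67.hasSing_of_range (Q := hyp F) (LinearMap.inl F F F) LinearMap.inl_injective
    (fun u => by simp)
  rwa [finrank_self] at this

variable (F) in
/-- An existence statement for tori. -/
def HasTorus (V : Type*) [AddCommGroup V] [Module F V] (Q : QuadraticForm F V) (N : ℕ) : Prop :=
  ∃ g : H5.orth Q, orderOf g = N

section Tori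

variable [CharP F 2]

/-- Multiplication by a unit. -/
noncomputable def mulUnit {L : Type*} [Field L] [Algebra F L] (u : Lˣ) : L ≃ₗ[F] L where
  toFun x := (u : L) * x
  map_add' x y := mul_add _ _ _
  map_smul' c x := by simp
  invFun x := ((u⁻¹ : Lˣ) : L) * x
  left_inv x := by simp
  right_inv x := by simp

@[simp] theorem mulUnit_apply {L : Type*} [Field L] [Algebra F L] (u : Lˣ) (x : L) :
    mulUnit (F := F) u x = (u : L) * x := rfl

/-- The extension of degree `n`. -/
abbrev Ext (F : Type*) [Field F] [Finite F] [CharP F 2] (n : ℕ) [NeZero n] : Type :=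
  haveI : Fact (Nat.Prime 2) := ⟨Nat.prime_two⟩
  FiniteField.Extension F 2 n

theorem finrank_Ext (n : ℕ) [NeZero n] : finrank F (Ext F n) = n :=
  haveI : Fact (Nat.Prime 2) := ⟨Nat.prime_two⟩
  FiniteField.finrank_extension F 2 n

theorem card_Ext (n : ℕ) [NeZero n] : Nat.card (Ext F n) = Fintype.card F ^ n := by
  haveI : Fact (Nat.Prime 2) := ⟨Nat.prime_two⟩
  rw [← Nat.card_eq_fintype_card]
  exact FiniteField.natCard_extension F 2 n

theorem exists_unit_orderOf (n : ℕ) [NeZero n] :
    ∃ z : (Ext F n)ˣ, orderOf z = Fintype.card F ^ n - 1 := by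
  haveI : Finite (Ext F n) := Module.finite_of_finite F
  obtain ⟨z, hz⟩ := IsCyclic.exists_ofOrder_eq_natCard (α := (Ext F n)ˣ)
  exact ⟨z, by rw [hz, Nat.card_units, card_Ext]⟩

/-- The bilinear form behind the plus torus. -/
noncomputable def plusBil (n : ℕ) [NeZero n] :
    LinearMap.BilinMap F (Ext F n × Ext F n) F :=
  (Algebra.traceForm F (Ext F n)).compl₁₂ (LinearMap.fst F _ _) (LinearMap.snd F _ _)

theorem plus_torus (n : ℕ) [NeZero n] :
    IsPlus (plusBil (F := F) n).toQuadraticMap n ∧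
      HasTorus F _ (plusBil (F := F) n).toQuadraticMap (Fintype.card F ^ n - 1) := by
  set Q := (plusBil (F := F) n).toQuadraticMap with hQdef
  have hQ : ∀ v, Q v = Algebra.trace F (Ext F n) (v.1 * v.2) := fun v => rfl
  have hp : ∀ x y, polar Q x y = Algebra.trace F (Ext F n) (x.1 * y.2 + y.1 * x.2) := fun x y => by
    simp only [polar, hQ, ← map_sub]
    congr 1
    simp only [Prod.fst_add, Prod.snd_add]
    ring
  have htr : ∀ a : Ext F n, (∀ b, Algebra.trace F (Ext F n) (a * b) = 0) → a = 0 := fun a ha =>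
    (traceForm_nondegenerate F (Ext F n)).1 a ha
  have hn : ∀ x, (∀ y, polar Q x y = 0) → x = 0 := fun x hx =>
    Prod.ext (htr _ fun b => by simpa [hp] using hx (0, b))
      (htr _ fun b => by simpa [hp, mul_comm] using hx (b, 0))
  refine ⟨⟨⟨hn, fun y hy => hn y fun x => (polar_comm _ _ _).trans (hy x)⟩,
    by rw [finrank_prod, finrank_Ext]; ring, ?_⟩, ?_⟩
  · have := H67.hasSing_of_range (Q := Q) (LinearMap.inl F (Ext F n) (Ext F n))
      LinearMap.inl_injective (fun u => by simp [hQ])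
    rwa [finrank_Ext] at this
  obtain ⟨z, hz⟩ := exists_unit_orderOf (F := F) n
  let act : (Ext F n)ˣ →* H5.orth Q :=
    { toFun := fun u => ⟨(mulUnit (F := F) u).prodCongr
          (mulUnit (F := F) u⁻¹), fun x => by
        rw [hQ, hQ]
        congr 1
        simp only [LinearEquiv.prodCongr_apply, mulUnit_apply]
        rw [mul_mul_mul_comm, Units.mul_inv, one_mul]⟩
      map_one' := H5.orth_ext fun x => by simp
      map_mul' := fun u w => H5.orth_ext fun x => by
        rw [H5.orth_mul_apply]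
        simp [mul_assoc, mul_comm, mul_left_comm] }
  refine ⟨act z, ?_⟩
  rw [orderOf_injective act ?_, hz]
  intro u w h
  have := congrArg (fun g : H5.orth Q => ((g : (Ext F n × Ext F n) ≃ₗ[F] (Ext F n × Ext F n)) (1, 1)).1) h
  simpa [act, Units.val_inj] using this

theorem minus_torus (m : ℕ) [NeZero m] [NeZero (2 * m)] :
    ∃ Q : QuadraticForm F (Ext F (2 * m)),
      IsMinus Q m ∧ HasTorus F _ Q (Fintype.card F ^ m + 1) := by
  classical
  set L := Ext F (2 * m)
  haveI : Fact (Nat.Prime 2) := ⟨Nat.prime_two⟩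
  haveI : Finite L := Module.finite_of_finite F
  set q := Fintype.card F with hqdef
  have hm : 1 ≤ m := NeZero.one_le
  have hq2 : 2 ≤ q := Fintype.one_lt_card
  let σ : L ≃ₐ[F] L := FiniteField.Extension.frob F 2 (2 * m) ^ m
  have hσ : ∀ x : L, σ x = x ^ q ^ m := fun x => by
    rw [hqdef, ← Nat.card_eq_fintype_card]
    exact FiniteField.Extension.frob_iterate_apply F 2 (2 * m) m
  obtain ⟨z, hz⟩ := exists_unit_orderOf (F := F) (2 * m)
  have hqm : 2 ≤ q ^ m := le_trans hq2 (Nat.le_self_pow (by omega) q)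
  have hfac : (q ^ m - 1) * (q ^ m + 1) = q ^ (2 * m) - 1 := by
    rw [two_mul, pow_add, mul_comm, ← Nat.sq_sub_sq, sq, one_pow]
  set w := z ^ (q ^ m - 1) with hw
  have hwo : orderOf w = q ^ m + 1 := by
    rw [hw, orderOf_pow_of_dvd (by omega) (by rw [hz, ← hfac]; exact dvd_mul_right _ _), hz, ← hfac,
      Nat.mul_div_cancel_left _ (by omega)]
  have hθ : (z : L) + σ z ≠ 0 := by
    intro h
    haveI : CharP L 2 := charP_of_injective_algebraMap (algebraMap F L).injective 2
    rw [CharTwo.add_eq_zero, hσ, ← Units.val_pow_eq_pow_val, Units.val_inj] at h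
    have h' : z ^ 1 = z ^ q ^ m := by rw [pow_one]; exact h
    have hdvd := (Nat.modEq_iff_dvd' (by omega)).1 (pow_eq_pow_iff_modEq.1 h')
    rw [hz, ← hfac] at hdvd
    have h1 := Nat.le_of_dvd (by omega) hdvd
    have h2 : (q ^ m - 1) * 2 ≤ (q ^ m - 1) * (q ^ m + 1) := Nat.mul_le_mul_left _ (by omega)
    omega
  let B : LinearMap.BilinMap F L F :=
    (Algebra.traceForm F L).compl₁₂ (LinearMap.mulLeft F (z : L)) σ.toLinearMap
  set Q := B.toQuadraticMap with hQdef
  have hQ : ∀ x, Q x = Algebra.trace F L ((z : L) * x * σ x) := fun x => rfl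
  have hp : ∀ x y, polar Q x y = Algebra.trace F L (((z : L) + σ z) * σ y * x) := by
    intro x y
    have e1 : Algebra.trace F L ((z : L) * y * σ x) = Algebra.trace F L (σ z * σ y * x) := by
      conv_lhs => rw [← Algebra.trace_eq_of_algEquiv σ]
      have : σ (σ x) = x := by
        rw [hσ, hσ, ← pow_mul, ← pow_add, ← two_mul]
        haveI := Fintype.ofFinite L
        rw [hqdef, ← card_Ext (F := F) (2 * m), Nat.card_eq_fintype_card]
        exact FiniteField.pow_card x
      rw [map_mul σ, map_mul σ, this]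
    simp only [polar, hQ, map_add]
    rw [show ((z : L) * (x + y) * (σ x + σ y)) = (z : L) * x * σ x + (z : L) * y * σ y +
      ((z : L) * x * σ y + (z : L) * y * σ x) by ring]
    rw [map_add, map_add, map_add, e1, add_sub_right_comm, add_sub_cancel_left, add_sub_cancel_left,
      ← map_add]
    congr 1
    ring
  have hn : ∀ x, (∀ y, polar Q x y = 0) → x = 0 := by
    intro x hx
    refine (traceForm_nondegenerate F L).1 x fun b => ?_
    have := hx (σ.symm (b / ((z : L) + σ z)))
    rw [hp, σ.apply_symm_apply, mul_div_cancel₀ _ hθ] at this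
    rw [Algebra.traceForm_apply, mul_comm x b]
    exact this
  have hinv : ∀ u ∈ Subgroup.zpowers w, ∀ x : L, Q ((u : L) * x) = Q x := by
    intro u hu x
    obtain ⟨i, rfl⟩ := mem_powers_iff_mem_zpowers.2 hu
    rw [hQ, hQ]
    congr 1
    have hw1 : ((w ^ i : Lˣ) : L) * σ ((w ^ i : Lˣ) : L) = 1 := by
      rw [hσ, ← pow_succ', ← Units.val_pow_eq_pow_val, ← pow_mul, mul_comm i, pow_mul, ← hwo,
        pow_orderOf_eq_one, one_pow, Units.val_one]
    rw [map_mul]
    linear_combination ((z : L) * x * σ x) * hw1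
  refine ⟨Q, ⟨⟨hn, fun y hy => hn y fun x => (polar_comm _ _ _).trans (hy x)⟩, finrank_Ext _, ?_⟩, ?_⟩
  · rintro hs
    obtain ⟨W, hW, hWm⟩ := hs
    obtain ⟨g, hg⟩ := H4.isom_qPlus_of_singular
      (⟨hn, fun y hy => hn y fun x => (polar_comm _ _ _).trans (hy x)⟩ :
        (polarBilin Q).Nondegenerate) (finrank_Ext (F := F) (2 * m)) W hW hWm
    let T : Set Lˣ := {u | Q (u : L) = 0}
    have hT : QuotientGroup.mk ⁻¹' (QuotientGroup.mk '' T : Set (Lˣ ⧸ Subgroup.zpowers w)) = T := by
      refine Set.Subset.antisymm (fun u ⟨v, hv, hvu⟩ => ?_) (fun u hu => ⟨u, hu, rfl⟩)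
      have h1 := QuotientGroup.eq.1 hvu
      have h2 := hinv _ h1 (v : L)
      rw [← Units.val_mul, show v⁻¹ * u * v = u by rw [mul_comm v⁻¹ u, inv_mul_cancel_right]] at h2
      exact h2.trans hv
    have hdvd : q ^ m + 1 ∣ Nat.card T := by
      have e := Nat.card_congr (QuotientGroup.preimageMkEquivSubgroupProdSet (Subgroup.zpowers w)
        (QuotientGroup.mk '' T))
      rw [hT, Nat.card_prod, Nat.card_zpowers, hwo] at e
      exact ⟨_, e⟩
    have hcardT : Nat.card T + 1 = Nat.card {x : L // Q x = 0} := by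
      haveI : Finite Lˣ := inferInstance
      rw [← Nat.card_congr (Equiv.optionSubtypeNe (⟨0, by rw [hQ]; simp⟩ : {x : L // Q x = 0})),
        Finite.card_option]
      congr 1
      exact Nat.card_congr
        { toFun := fun u => ⟨⟨(u.1 : L), u.2⟩, fun h => u.1.ne_zero (congrArg Subtype.val h)⟩
          invFun := fun x => ⟨Units.mk0 x.1.1 (fun h => x.2 (Subtype.ext h)), x.1.2⟩
          left_inv := fun u => Subtype.ext (Units.ext rfl)
          right_inv := fun x => Subtype.ext (Subtype.ext rfl) }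
    have hZ : (q : ℤ) * Nat.card {x : L // Q x = 0} =
        (q : ℤ) ^ (2 * m) + (q : ℤ) ^ (m + 1) - (q : ℤ) ^ m := by
      rw [← H4.card_qPlus_zeros (F := F) m]
      congr 2
      refine Nat.card_congr (g.toEquiv.subtypeEquiv fun v => ?_)
      rw [← hg v, H4.coe_qPlus]
      rfl
    obtain ⟨k, hk⟩ := hdvd
    obtain ⟨j, rfl⟩ := Nat.exists_eq_add_of_le' hm
    have hkey : (q ^ (j + 1) + 1) * k + 2 * (q ^ j + 1) = (q ^ j + 1) * (q ^ (j + 1) + 1) := by
      have hq0 : (q : ℤ) ≠ 0 := by omega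
      zify
      refine mul_left_cancel₀ hq0 ?_
      rw [← hcardT, hk] at hZ
      push_cast at hZ
      linear_combination hZ
    have hd2 : q ^ (j + 1) + 1 ∣ 2 * (q ^ j + 1) := by
      have : q ^ (j + 1) + 1 ∣ (q ^ (j + 1) + 1) * k + 2 * (q ^ j + 1) := hkey ▸ dvd_mul_left _ _
      exact (Nat.dvd_add_right (dvd_mul_right _ _)).1 this
    have hcop : Nat.Coprime (q ^ (j + 1) + 1) 2 := by
      have he : Even (q ^ (j + 1)) :=
        Nat.even_pow.2 ⟨Nat.even_iff.2 (FiniteField.even_card_of_char_two (ringChar.eq F 2)), by omega⟩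
      exact Nat.coprime_two_right.2 he.add_one
    have hle := Nat.le_of_dvd (by positivity) (hcop.dvd_of_dvd_mul_left hd2)
    have : q ^ j * 2 ≤ q ^ (j + 1) := by rw [pow_succ]; exact Nat.mul_le_mul_left _ hq2
    have := Nat.one_le_pow j q (by omega)
    omega
  let act : Subgroup.zpowers w →* H5.orth Q :=
    { toFun := fun u => ⟨mulUnit (F := F) u.1, fun x => by
        simpa using hinv _ u.2 x⟩
      map_one' := H5.orth_ext fun x => by simp
      map_mul' := fun u v => H5.orth_ext fun x => by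
        rw [H5.orth_mul_apply]
        simp [mul_assoc] }
  refine ⟨act ⟨w, Subgroup.mem_zpowers w⟩, ?_⟩
  rw [orderOf_injective act ?_, ← Subgroup.orderOf_coe, hwo]
  intro u v h
  have := congrArg (fun g : H5.orth Q => (g : L ≃ₗ[F] L) (1 : L)) h
  exact Subtype.ext (Units.ext (mul_right_cancel₀ one_ne_zero this))

end Tori

end Cfsg.Agent.H9.Iso8
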