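import Cfsg.Agent.H9.Iso8.Real
import Cfsg.Agent.H18.SpecEight.Main
import Cfsg.Agent.H4.DiscClass
import Mathlib.GroupTheory.SemidirectProduct

/-!
`PSp₈(q)` shares its element orders with arbitrarily large finite groups, for even `q`: the affine
groups `V^k ⋊ Ω₈⁻(q)`.
-/

set_option autoImplicit false
set_option linter.unusedSectionVars false

namespace Cfsg.Agent.H9.Iso8

open QuadraticMap hiding sq
open Module

variable {F : Type*} [Field F] [Fintype F] [CharP F 2]

/-- The common spectrum. -/
def spec (q : ℕ) : Set ℕ := {n | ∃ e, n ∣ num q e}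

/-- A finite group whose orders are bounded by the twelve numbers, each being attained, has the
common spectrum. -/
theorem range_eq_spec {G : Type*} [Group G] [Finite G] {q : ℕ}
    (h : ∀ g : G, ∃ e, orderOf g ∣ num q e) (h' : ∀ e, ∃ g : G, orderOf g = num q e) :
    Set.range (orderOf : G → ℕ) = spec q := by
  ext n
  constructor
  · rintro ⟨g, rfl⟩
    exact h g
  · rintro ⟨e, hn⟩
    obtain ⟨g, hg⟩ := h' e
    exact ⟨g ^ (orderOf g / n), orderOf_pow_orderOf_div (orderOf_pos g).ne' (hg ▸ hn)⟩

section Space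

variable {V : Type*} [AddCommGroup V] [Module F V] [FiniteDimensional F V] {Q : QuadraticForm F V}

theorem pow_apply_eq (g : H5.orth Q) (n : ℕ) (v : V) :
    ((g ^ n : H5.orth Q) : V ≃ₗ[F] V) v = (((g : V ≃ₗ[F] V) : V →ₗ[F] V) ^ n) v := by
  induction n generalizing v with
  | zero => rfl
  | succ n ih =>
    rw [pow_succ, H5.orth_mul_apply, ih, pow_succ, Module.End.mul_apply]
    rfl

theorem orbSum_eq_sum (g : H5.orth Q) (v : V) (N : ℕ) :
    orbSum g v N = (∑ i ∈ Finset.range N, (((g : V ≃ₗ[F] V) : V →ₗ[F] V)) ^ i) v := by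
  rw [orbSum, LinearMap.sum_apply]
  exact Finset.sum_congr rfl fun i _ => pow_apply_eq g i v

theorem bound (hV : IsMinus Q 4) (g : H5.orth Q) :
    ∃ e, g ^ num (Fintype.card F) e = 1 ∧
      (g ∈ commutator (H5.orth Q) → ∀ v, orbSum g v (num (Fintype.card F) e) = 0) := by
  have h8 : finrank F V = 8 := hV.2.1
  obtain ⟨e, he, hpow⟩ := exists_num_pow h8 (polarBilin Q) hV.1 ((g : V ≃ₗ[F] V) : V →ₗ[F] V)
    (fun x y => by
      simp only [polarBilin_apply_apply, polar, LinearEquiv.coe_coe, ← map_add, orth_map_eq])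
  refine ⟨e, ?_, fun hg v => ?_⟩
  · refine H5.orth_ext fun x => ?_
    rw [pow_apply_eq, hpow]
    rfl
  · rw [orbSum_eq_sum, num, geom_sum_eq_zero _ (oddPart_odd card_even Fintype.card_pos e) he,
      LinearMap.zero_apply]
    intro hne
    have : Finite V := Module.finite_of_finite F
    have hev := (H65.mem_omega_iff_even hV.1 (Or.inr (by rw [h8]; norm_num)) g).1 hg
    have hsum := H5.rk_add_finrank_fixer g
    have h1 : 1 ≤ finrank F (LinearMap.ker (((g : V ≃ₗ[F] V) : V →ₗ[F] V) - 1)) :=
      Nat.one_le_iff_ne_zero.2 fun h0 => hne (Submodule.finrank_eq_zero.1 h0)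
    change 2 ≤ finrank F (H5.fixer g)
    change 1 ≤ finrank F (H5.fixer g) at h1
    obtain ⟨k, hk⟩ := hev
    omega

theorem range_orth (hV : IsMinus Q 4) :
    Set.range (orderOf : H5.orth Q → ℕ) = spec (Fintype.card F) := by
  have : Finite V := Module.finite_of_finite F
  have : Finite (V ≃ₗ[F] V) := Finite.of_injective _ DFunLike.coe_injective
  exact range_eq_spec (fun g => (bound hV g).imp fun e he => orderOf_dvd_of_pow_eq_one he.1)
    fun e => (realised hV e).1

variable (Q) (k : ℕ)

/-- The action of the commutator subgroup on `k` copies of the space. -/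
noncomputable def vecAct : commutator (H5.orth Q) →* MulAut (Multiplicative (Fin k → V)) where
  toFun g := AddEquiv.toMultiplicative
    (LinearEquiv.piCongrRight (fun _ : Fin k => ((g.1 : H5.orth Q) : V ≃ₗ[F] V))).toAddEquiv
  map_one' := MulEquiv.ext fun _ => rfl
  map_mul' _ _ := MulEquiv.ext fun _ => rfl

/-- The affine group. -/
abbrev Affine : Type _ := Multiplicative (Fin k → V) ⋊[vecAct Q k] commutator (H5.orth Q)

variable {Q k}

theorem affine_pow (x : Affine Q k) (n : ℕ) :
    (x ^ n).right = x.right ^ n ∧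
      ∀ i, (x ^ n).left.toAdd i = orbSum x.right.1 (x.left.toAdd i) n := by
  induction n with
  | zero => exact ⟨rfl, fun i => by simp [orbSum]⟩
  | succ n ih =>
    refine ⟨by rw [pow_succ, SemidirectProduct.mul_right, ih.1, pow_succ], fun i => ?_⟩
    rw [pow_succ, SemidirectProduct.mul_left, ih.1, orbSum, Finset.sum_range_succ, toAdd_mul,
      Pi.add_apply, ih.2 i]
    rfl

theorem range_affine (hV : IsMinus Q 4) (hk : 0 < k) :
    Set.range (orderOf : Affine Q k → ℕ) = spec (Fintype.card F) := by
  have : Finite V := Module.finite_of_finite F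
  have : Finite (V ≃ₗ[F] V) := Finite.of_injective _ DFunLike.coe_injective
  have : Finite (Affine Q k) := Finite.of_equiv _ SemidirectProduct.equivProd.symm
  refine range_eq_spec (fun x => ?_) fun e => ?_
  · obtain ⟨e, he1, he2⟩ := bound hV x.right.1
    refine ⟨e, orderOf_dvd_of_pow_eq_one (SemidirectProduct.ext ?_ ?_)⟩
    · refine Multiplicative.toAdd.injective (funext fun i => ?_)
      rw [(affine_pow x _).2 i, he2 x.right.2]
      rfl
    · rw [(affine_pow x _).1]
      exact Subtype.ext he1
  · obtain ⟨-, g, hg, h0, h1⟩ := realised hV e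
    by_cases hc : twoExp e = 0
    · refine ⟨SemidirectProduct.inr ⟨g, hg⟩, ?_⟩
      rw [orderOf_injective _ SemidirectProduct.inr_injective, Subgroup.orderOf_mk, h0 hc, num, hc,
        pow_zero, one_mul]
    · obtain ⟨hog, v, hv⟩ := h1 hc
      set N := 2 ^ (twoExp e - 1) * oddPart (Fintype.card F) e
      let x : Affine Q k := ⟨Multiplicative.ofAdd fun _ => v, ⟨g, hg⟩⟩
      have hnum : num (Fintype.card F) e = 2 * N := by
        obtain ⟨c, hc'⟩ := Nat.exists_eq_succ_of_ne_zero hc
        simp only [N, num, hc', Nat.succ_sub_one, pow_succ]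
        ring
      have hx2 : x ^ (2 * N) = 1 := by
        have hgN : x.right.1 ^ N = 1 := by rw [← hog]; exact pow_orderOf_eq_one g
        refine SemidirectProduct.ext (Multiplicative.toAdd.injective (funext fun i => ?_)) ?_
        · rw [(affine_pow x _).2 i, orbSum, two_mul, Finset.sum_range_add]
          simp only [pow_add, hgN, one_mul]
          exact add_self_vec Q _
        · rw [(affine_pow x _).1]
          exact Subtype.ext (by rw [Subgroup.coe_pow, mul_comm, pow_mul, hgN, one_pow]; rfl)
      have hdvd : ∀ n, x ^ n = 1 → g ^ n = 1 := fun n h => by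
        have h1 := (affine_pow x n).1
        rw [h] at h1
        exact (congrArg Subtype.val h1).symm
      refine ⟨x, ?_⟩
      rw [hnum]
      obtain ⟨j, hj⟩ : N ∣ orderOf x :=
        hog ▸ orderOf_dvd_of_pow_eq_one (hdvd _ (pow_orderOf_eq_one x))
      have hN : 0 < N := hog ▸ orderOf_pos g
      have hle : j ∣ 2 := by
        have := orderOf_dvd_of_pow_eq_one hx2
        rw [hj, mul_comm 2 N] at this
        exact (Nat.mul_dvd_mul_iff_left hN).1 this
      rcases (Nat.dvd_prime Nat.prime_two).1 hle with rfl | rfl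
      · exfalso
        apply hv
        have h := (affine_pow x N).2 ⟨0, hk⟩
        rw [mul_one] at hj
        rw [← hj, pow_orderOf_eq_one] at h
        rw [← hj]
        exact h.symm
      · rw [hj, mul_comm]

end Space

theorem exists_type_zero (G : Type*) [Group G] [Finite G] :
    ∃ (H : Type) (_ : Group H) (_ : Fintype H), Fintype.card H = Nat.card G ∧
      Set.range (orderOf : H → ℕ) = Set.range (orderOf : G → ℕ) := by
  have e : Shrink.{0} G ≃* G := Shrink.mulEquiv
  have : Fintype (Shrink.{0} G) := Fintype.ofFinite _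
  refine ⟨Shrink.{0} G, inferInstance, inferInstance,
    by rw [← Nat.card_eq_fintype_card, Nat.card_congr e.toEquiv], ?_⟩
  rw [show (orderOf : Shrink.{0} G → ℕ) = orderOf ∘ e from funext fun x => (e.orderOf_eq x).symm,
    e.surjective.range_comp]

theorem exists_large (M : ℕ) :
    ∃ (H : Type) (_ : Group H) (_ : Fintype H), M < Fintype.card H ∧
      Set.range (orderOf : H → ℕ) = Set.range (orderOf : Cfsg.PSp 4 F → ℕ) := by
  classical
  obtain ⟨ζ, hζ⟩ : ∃ ζ : F, ∀ t : F, t ^ 2 + t + ζ ≠ 0 := by
    by_contra! h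
    have hsurj : Function.Surjective fun t : F => t ^ 2 + t := fun c => by
      obtain ⟨t, ht⟩ := h c
      exact ⟨t, by simpa using (CharTwo.add_eq_zero.1 ht)⟩
    have := (Finite.injective_iff_surjective.2 hsurj) (a₁ := 0) (a₂ := 1)
      (by simp [CharTwo.add_self_eq_zero])
    exact zero_ne_one this
  have han := H4.anisotropic_of_no_root hζ
  let Q := H4.qMinus 3 F 1 ζ
  have hV : IsMinus Q 4 := ⟨H4.qMinus_nondegenerate' han 3, by simp,
    H67.not_hasSing_qMinus 3 han⟩
  have hiso : Set.range (orderOf : Cfsg.PSp 4 F → ℕ) = spec (Fintype.card F) := by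
    rw [H18.SpecEight.range_orderOf_eq han, ← range_orth hV]
    set φ := H5.isoEquiv Q (H4.coe_qMinus (m := 3) (F := F) (a := 1) (b := ζ))
    rw [show (orderOf : ↥(Cfsg.isometryGroup F (Cfsg.quadFormMinus 3 F 1 ζ)) → ℕ) = orderOf ∘ φ
      from funext fun x => (φ.orderOf_eq x).symm, φ.surjective.range_comp]
  have : Finite (((Fin 3 ⊕ Fin 3) ⊕ Fin 2 → F) ≃ₗ[F] ((Fin 3 ⊕ Fin 3) ⊕ Fin 2 → F)) :=
    Finite.of_injective _ DFunLike.coe_injective
  have : Finite (Affine Q (M + 1)) := Finite.of_equiv _ SemidirectProduct.equivProd.symm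
  obtain ⟨H, iG, iF, hcard, hrange⟩ := exists_type_zero (Affine Q (M + 1))
  refine ⟨H, iG, iF, ?_, ?_⟩
  · have hinj : Function.Injective (SemidirectProduct.inl :
        Multiplicative (Fin (M + 1) → ((Fin 3 ⊕ Fin 3) ⊕ Fin 2 → F)) →* Affine Q (M + 1)) :=
      SemidirectProduct.inl_injective
    have := Nat.card_le_card_of_injective _ hinj
    rw [← hcard, Nat.card_congr Multiplicative.toAdd, Nat.card_eq_fintype_card,
      Fintype.card_fun] at this
    refine lt_of_lt_of_le ?_ this
    refine lt_of_lt_of_le (Nat.lt_two_pow_self (n := M + 1) |>.trans_le' M.le_succ) ?_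
    rw [Fintype.card_fin]
    exact Nat.pow_le_pow_left (Fintype.one_lt_card) _
  · rw [hrange, hiso, range_affine hV M.succ_pos]

end Cfsg.Agent.H9.Iso8
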