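import Cfsg.Agent.H9.Iso8.Roots

/-!
Orders of isometries of non-degenerate bilinear forms in dimension eight, characteristic two.
-/

set_option autoImplicit false
set_option linter.unusedSectionVars false
set_option maxRecDepth 8000

namespace Cfsg.Agent.H9.Iso8

open Polynomial Matrix

variable {F : Type*} [Field F] [Fintype F] [CharP F 2]

theorem roots_reverse_prod {K : Type*} [Field K] (s : Multiset K) (h0 : (0 : K) ∉ s) :
    ((s.map fun r => X - C r).prod).reverse.roots = s.map fun r => r⁻¹ := by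
  induction s using Multiset.induction_on with
  | empty => simp [reverse]
  | cons r s ih =>
    simp only [Multiset.mem_cons, not_or] at h0
    have hr : (r : K) ≠ 0 := fun h => h0.1 h.symm
    have hp : ((s.map fun r => X - C r).prod).Monic :=
      monic_multiset_prod_of_monic _ _ fun x _ => monic_X_sub_C x
    have h1 : (X - C r : K[X]).reverse = C (-r) * (X - C r⁻¹) := by
      have : (X - C r : K[X]).reverse = 1 - C r * X := by
        rw [sub_eq_add_neg, ← C_neg, reverse_add_C, natDegree_X, pow_one, C_neg]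
        simp [reverse, sub_eq_add_neg]
      rw [this, mul_sub, ← C_mul, neg_mul, mul_inv_cancel₀ hr, C_neg, C_neg, C_1]
      ring
    rw [Multiset.map_cons, Multiset.prod_cons, reverse_mul_of_domain, h1, mul_assoc,
      roots_C_mul _ (neg_ne_zero.2 hr), roots_mul, roots_X_sub_C, ih h0.2, Multiset.map_cons,
      Multiset.singleton_add]
    exact mul_ne_zero (X_sub_C_ne_zero _) (by simpa using hp.ne_zero)

theorem charpoly_inv_roots {K : Type*} [Field K] [IsAlgClosed K] {n : Type*} [Fintype n]
    [DecidableEq n] (A : Matrix n n K) (hA : A.det ≠ 0) :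
    (0 : K) ∉ A.charpoly.roots ∧ A⁻¹.charpoly.roots = A.charpoly.roots.map fun r => r⁻¹ := by
  have h0 : (0 : K) ∉ A.charpoly.roots := by
    rw [mem_roots A.charpoly_monic.ne_zero, IsRoot, eval_charpoly]
    simpa [det_neg] using hA
  refine ⟨h0, ?_⟩
  have hu : IsUnit A := (isUnit_iff_isUnit_det A).2 (isUnit_iff_ne_zero.2 hA)
  have hs : A.charpoly = (A.charpoly.roots.map fun r => X - C r).prod :=
    (IsAlgClosed.splits A.charpoly).eq_prod_roots_of_monic A.charpoly_monic
  have hc : ((-1 : K[X]) ^ Fintype.card n * C (Ring.inverse A.det)) =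
      C ((-1 : K) ^ Fintype.card n * Ring.inverse A.det) := by simp
  rw [charpoly_inv A hu, hc, roots_C_mul]
  · rw [← reverse_charpoly]
    conv_lhs => rw [hs]
    exact roots_reverse_prod _ h0
  · refine mul_ne_zero (pow_ne_zero _ (neg_ne_zero.2 one_ne_zero)) ?_
    rw [Ring.inverse_eq_inv]
    exact inv_ne_zero hA

theorem card_even : Even (Fintype.card F) :=
  Nat.even_iff.2 (FiniteField.even_card_of_char_two (ringChar.eq F 2))

theorem oddPart_odd {q : ℕ} (hq : Even q) (h1 : 1 ≤ q) (e : Fin 12) : Odd (oddPart q e) := by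
  have hp : ∀ d, 1 ≤ d → Odd (q ^ d - 1) ∧ Odd (q ^ d + 1) := fun d hd => by
    have he : Even (q ^ d) := Nat.even_pow.2 ⟨hq, by omega⟩
    have := Nat.one_le_pow d q h1
    obtain ⟨k, hk⟩ := he
    exact ⟨⟨k - 1, by omega⟩, ⟨k, by omega⟩⟩
  have h1' := hp 1 le_rfl
  rw [pow_one] at h1'
  obtain ⟨a1, b1⟩ := h1'
  obtain ⟨a2, b2⟩ := hp 2 (by omega)
  obtain ⟨a3, b3⟩ := hp 3 (by omega)
  obtain ⟨a4, b4⟩ := hp 4 (by omega)
  fin_cases e <;> simp [oddPart] <;>
    first | assumption | exact b2.mul a1 | exact b2.mul b1 | exact a3.mul b1 | exact b3.mul a1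

/-- The characteristic polynomial divides one of twelve binomial powers. -/
theorem exists_num_charpoly {n : Type*} [Fintype n] [DecidableEq n] (hn : Fintype.card n = 8)
    (A J : Matrix n n F) (hJ : J.det ≠ 0) (hA : Aᵀ * J * A = J) :
    ∃ e, A.charpoly ∣ (X ^ oddPart (Fintype.card F) e - 1 : F[X]) ^ 2 ^ twoExp e := by
  classical
  have hdet : A.det ≠ 0 := fun h => hJ (by rw [← hA, det_mul, h, mul_zero])
  have hAu : IsUnit A.det := isUnit_iff_ne_zero.2 hdet
  have hJu : IsUnit J.det := isUnit_iff_ne_zero.2 hJ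
  have hconj : A⁻¹ = J⁻¹ * Aᵀ * J := by
    refine inv_eq_left_inv ?_
    rw [Matrix.mul_assoc, Matrix.mul_assoc, ← Matrix.mul_assoc Aᵀ, hA, nonsing_inv_mul _ hJu]
  have hcp : A⁻¹.charpoly = A.charpoly := by
    obtain ⟨u, hu⟩ := (isUnit_iff_isUnit_det J).2 hJu
    rw [hconj, ← hu, charpoly_units_conj', charpoly_transpose]
  let K := AlgebraicClosure F
  let φ : F →+* K := algebraMap F K
  let σ : K →+* K := (FiniteField.frobeniusAlgHom F K : K →ₐ[F] K).toRingHom
  have hσ : ∀ x : K, σ x = x ^ Fintype.card F := fun x => rfl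
  set p := A.charpoly.map φ with hp
  have hpm : p.Monic := A.charpoly_monic.map φ
  have hp' : (A.map φ).charpoly = p := charpoly_map A φ
  have hsplit := IsAlgClosed.splits p
  have hcard : p.roots.card = p.natDegree := hsplit.natDegree_eq_card_roots.symm
  have hdeg : p.natDegree = 8 := by
    rw [hp, natDegree_map, charpoly_natDegree_eq_dim, hn]
  have hdetK : (A.map φ).det ≠ 0 := by
    rw [show (A.map φ).det = φ A.det from (RingHom.map_det φ A).symm]; exact (map_ne_zero φ).2 hdet
  obtain ⟨h0, hinv⟩ := charpoly_inv_roots (A.map φ) hdetK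
  have hinvmap : (A.map φ)⁻¹ = A⁻¹.map φ := inv_eq_left_inv (by
    rw [← Matrix.map_mul, nonsing_inv_mul _ hAu, Matrix.map_one φ (map_zero φ) (map_one φ)])
  rw [hinvmap, charpoly_map, hcp, ← hp] at hinv
  rw [hp'] at h0 hinv
  have hpow : p.roots.map (fun x => x ^ Fintype.card F) = p.roots := by
    have := roots_map_of_injective_of_card_eq_natDegree (f := σ) σ.injective hcard
    rw [show p.map σ = p from by
      rw [hp, Polynomial.map_map]
      congr 1
      exact RingHom.ext fun x => (FiniteField.frobeniusAlgHom F K).commutes x] at this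
    exact this
  have h2 : (2 : K) = 0 := by
    rw [← map_ofNat φ 2, CharTwo.two_eq_zero, map_zero]
  obtain ⟨e, he⟩ := exists_num_roots h2 Fintype.card_pos σ.injective p.roots
    (hcard.trans hdeg) h0 hinv.symm hpow
  refine ⟨e, ?_⟩
  rw [← map_dvd_map φ φ.injective A.charpoly_monic, ← hp, Polynomial.map_pow, Polynomial.map_sub,
    Polynomial.map_pow, map_X, Polynomial.map_one]
  have hL : 1 ≤ oddPart (Fintype.card F) e :=
    (oddPart_odd card_even Fintype.card_pos e).pos
  have hne : (X ^ oddPart (Fintype.card F) e - 1 : K[X]) ≠ 0 := by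
    simpa using X_pow_sub_C_ne_zero hL (1 : K)
  refine hsplit.dvd_of_roots_le_roots hpm.ne_zero ?_
  rw [roots_pow, Multiset.le_iff_count]
  intro x
  rw [Multiset.count_nsmul]
  by_cases hx : x ∈ p.roots
  · obtain ⟨hxL, hxc⟩ := he x hx
    have : 1 ≤ (X ^ oddPart (Fintype.card F) e - 1 : K[X]).roots.count x := by
      rw [Multiset.one_le_count_iff_mem, mem_roots hne]
      simp [hxL]
    calc p.roots.count x ≤ 2 ^ twoExp e := hxc
      _ = 2 ^ twoExp e * 1 := (mul_one _).symm
      _ ≤ _ := Nat.mul_le_mul_left _ this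
  · simp [Multiset.count_eq_zero.2 hx]

theorem binom_pow (L c : ℕ) :
    (X ^ L - 1 : F[X]) ^ 2 ^ c = X ^ (2 ^ c * L) - 1 := by
  rw [sub_pow_char_pow, one_pow, ← pow_mul, mul_comm]

/-- The order bound. -/
theorem exists_num_pow {V : Type*} [AddCommGroup V] [Module F V] [FiniteDimensional F V]
    (hV : Module.finrank F V = 8) (B : V →ₗ[F] V →ₗ[F] F) (hB : B.Nondegenerate)
    (g : V →ₗ[F] V) (hg : ∀ x y, B (g x) (g y) = B x y) :
    ∃ e, g.charpoly ∣ (X ^ oddPart (Fintype.card F) e - 1 : F[X]) ^ 2 ^ twoExp e ∧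
      g ^ num (Fintype.card F) e = 1 := by
  let b := Module.finBasisOfFinrankEq F V hV
  obtain ⟨e, he⟩ := exists_num_charpoly (F := F) (Fintype.card_fin 8) (LinearMap.toMatrix b b g)
    (LinearMap.toMatrix₂ b b B)
    ((LinearMap.nondegenerate_iff_det_ne_zero b).1 hB) (by
      have : B.compl₁₂ g g = B := LinearMap.ext₂ hg
      conv_rhs => rw [← this]
      exact (LinearMap.toMatrix₂_compl₁₂ b b b b B g g).symm)
  have e1 : (LinearMap.toMatrix b b g).charpoly = g.charpoly := g.charpoly_toMatrix b
  rw [e1] at he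
  refine ⟨e, he, ?_⟩
  have hbin := binom_pow (F := F) (oddPart (Fintype.card F) e) (twoExp e)
  rw [num]
  generalize oddPart (Fintype.card F) e = L at he hbin ⊢
  generalize 2 ^ twoExp e = N at he hbin ⊢
  rw [hbin] at he
  have h0 := aeval_eq_zero_of_dvd_aeval_eq_zero he g.aeval_self_charpoly
  simp only [map_sub, map_pow, aeval_X, map_one, sub_eq_zero] at h0
  exact h0

theorem geom_mul (N : ℕ) : (∑ i ∈ Finset.range N, (X : F[X]) ^ i) * (X - 1) = X ^ N - 1 :=
  geom_sum_mul X N

/-- If `1` has geometric multiplicity at least two when it is an eigenvalue, the geometric sum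
vanishes. -/
theorem geom_sum_eq_zero {V : Type*} [AddCommGroup V] [Module F V] [FiniteDimensional F V]
    (g : V →ₗ[F] V) {L c : ℕ} (hL : Odd L)
    (h : g.charpoly ∣ (X ^ L - 1 : F[X]) ^ 2 ^ c)
    (hfix : LinearMap.ker (g - 1) ≠ ⊥ → 2 ≤ Module.finrank F (LinearMap.ker (g - 1))) :
    ∑ i ∈ Finset.range (2 ^ c * L), g ^ i = 0 := by
  classical
  set u : F[X] := ∑ i ∈ Finset.range L, X ^ i with hu
  have hu1 : u.eval 1 ≠ 0 := by
    rw [hu, eval_finsetSum]
    simp only [eval_pow, eval_X, one_pow, Finset.sum_const, Finset.card_range, nsmul_one]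
    rw [Ne, CharP.cast_eq_zero_iff F 2]
    obtain ⟨k, hk⟩ := hL
    omega
  have hXne : (X - 1 : F[X]) ≠ 0 := by simpa using X_sub_C_ne_zero (1 : F)
  set N := 2 ^ c with hN
  have hNpos : 1 ≤ N := Nat.one_le_two_pow
  have htarget : (∑ i ∈ Finset.range (N * L), (X : F[X]) ^ i) = (X - 1) ^ (N - 1) * u ^ N := by
    refine mul_right_cancel₀ hXne ?_
    rw [geom_mul, mul_right_comm, ← pow_succ, Nat.sub_add_cancel hNpos, ← mul_pow,
      mul_comm (X - 1 : F[X]), hu, geom_mul, hN, binom_pow]
  set p := g.charpoly with hp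
  have hpne : p ≠ 0 := g.charpoly_monic.ne_zero
  set n := p.rootMultiplicity 1 with hn
  obtain ⟨r, hpr, hr⟩ := exists_eq_pow_rootMultiplicity_mul_and_not_dvd p hpne 1
  rw [← hn, C_1] at hpr
  rw [C_1] at hr
  have hcop : IsCoprime r (X - 1 : F[X]) := by
    rw [← C_1]
    exact ((prime_X_sub_C (1 : F)).irreducible.coprime_iff_not_dvd.2 (by simpa using hr)).symm
  have hXu : IsCoprime (X - 1 : F[X]) u := by
    have : ¬ (X - C (1 : F)) ∣ u := by rw [dvd_iff_isRoot]; exact hu1
    simpa using (prime_X_sub_C (1 : F)).irreducible.coprime_iff_not_dvd.2 this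
  have hsplit : (X ^ L - 1 : F[X]) ^ N = (X - 1) ^ N * u ^ N := by
    rw [← mul_pow, mul_comm, hu, geom_mul]
  rw [hsplit, hpr] at h
  have hru : r ∣ u ^ N := (hcop.pow_right).dvd_of_dvd_mul_left ((dvd_mul_left r _).trans h)
  have hnN : n ≤ N := by
    have hd := (hXu.pow (m := n) (n := N)).dvd_of_dvd_mul_right ((dvd_mul_right _ _).trans h)
    have := natDegree_le_of_dvd hd (pow_ne_zero _ hXne)
    have hX1 : (X - 1 : F[X]).natDegree = 1 := by simpa using natDegree_X_sub_C (1 : F)
    rw [natDegree_pow, natDegree_pow, hX1] at this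
    omega
  suffices hs : ∃ j ≤ N - 1, aeval g ((X - 1 : F[X]) ^ j * r) = 0 by
    obtain ⟨j, hj, h0⟩ := hs
    have h1 := aeval_eq_zero_of_dvd_aeval_eq_zero (mul_dvd_mul (pow_dvd_pow (X - 1 : F[X]) hj) hru) h0
    rw [← htarget, map_sum] at h1
    simpa using h1
  rcases Nat.lt_or_ge n N with hlt | hge
  · exact ⟨n, by omega, by rw [← hpr]; exact g.aeval_self_charpoly⟩
  have hnN' : n = N := by omega
  refine ⟨n - 1, by omega, ?_⟩
  set d : Module.End F V := g - 1 with hd
  have hdaeval : ∀ j, aeval g ((X - 1 : F[X]) ^ j) = d ^ j := fun j => by simp [hd]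
  have hkn : LinearMap.ker (d ^ n) ≤ LinearMap.ker (d ^ (n - 1)) := by
    by_contra hnot
    -- otherwise the kernels grow strictly up to `n`
    have hlt : ∀ j, j < n → LinearMap.ker (d ^ j) < LinearMap.ker (d ^ (j + 1)) := by
      intro j hj
      refine lt_of_le_of_ne (fun x hx => ?_) fun heq => hnot ?_
      · rw [LinearMap.mem_ker, pow_succ', Module.End.mul_apply, LinearMap.mem_ker.1 hx, map_zero]
      · have hst : ∀ i, LinearMap.ker (d ^ (j + i)) = LinearMap.ker (d ^ j) := by
          intro i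
          induction i with
          | zero => rfl
          | succ i ih =>
            refine le_antisymm (fun x hx => ?_) (fun x hx => ?_)
            · have h1 : d x ∈ LinearMap.ker (d ^ (j + i)) := by
                rw [LinearMap.mem_ker, ← Module.End.mul_apply, ← pow_succ]
                exact hx
              rw [ih] at h1
              rw [heq, LinearMap.mem_ker, pow_succ, Module.End.mul_apply]
              exact h1
            · rw [← ih] at hx
              rw [LinearMap.mem_ker, show j + (i + 1) = (j + i) + 1 from rfl, pow_succ',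
                Module.End.mul_apply, LinearMap.mem_ker.1 hx, map_zero]
        have e1 := hst (n - j)
        have e2 := hst (n - 1 - j)
        rw [Nat.add_sub_cancel' hj.le] at e1
        rw [Nat.add_sub_cancel' (by omega)] at e2
        rw [e1, e2]
    have hk1 : LinearMap.ker d ≠ ⊥ := by
      have := hlt 0 (by omega)
      rw [pow_zero, zero_add, pow_one] at this
      intro hb
      rw [hb] at this
      exact not_lt_bot this
    have hgrow : ∀ j, 1 ≤ j → j ≤ n → j + 1 ≤ Module.finrank F (LinearMap.ker (d ^ j)) := by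
      intro j hj1 hjn
      induction j with
      | zero => omega
      | succ j ih =>
        rcases Nat.eq_zero_or_pos j with rfl | hj
        · rw [zero_add, pow_one]; exact hfix hk1
        · have := Submodule.finrank_lt_finrank_of_lt (hlt j (by omega))
          have := ih hj (by omega)
          omega
    have hb := g.finrank_genEigenspace_le (1 : F) n
    rw [Module.End.genEigenspace_nat, one_smul, ← hd, ← hp, ← hn] at hb
    have := hgrow n (by omega) le_rfl
    omega
  refine LinearMap.ext fun v => ?_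
  rw [map_mul, Module.End.mul_apply, hdaeval]
  refine hkn ?_
  rw [LinearMap.mem_ker, ← Module.End.mul_apply, ← hdaeval, ← map_mul, ← hpr, g.aeval_self_charpoly]
  rfl

end Cfsg.Agent.H9.Iso8
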