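import Cfsg.Agent.H9.Iso8.Blocks
import Cfsg.Agent.H9.Iso8.Poly
import Cfsg.Agent.H65.OmegaTwo

/-!
Each of the twelve numbers is the order of an isometry of a minus space of dimension eight, and of
an affine isometry whose linear part lies in the commutator subgroup.
-/

set_option autoImplicit false
set_option linter.unusedSectionVars false

namespace Cfsg.Agent.H9.Iso8

open QuadraticMap hiding sq
open Module

variable {F : Type*} [Field F] [CharP F 2]

/-- The two-part data of a space. -/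
def TwoData {V : Type*} [AddCommGroup V] [Module F V] (Q : QuadraticForm F V) (c : ℕ) : Prop :=
  (∃ u : H5.orth Q, orderOf u = 2 ^ c) ∧
    ∀ C : Subgroup (H5.orth Q), (∀ a b, a ∉ C → b ∉ C → a * b ∈ C) →
      (∀ x, Q x ≠ 0 → H5.refl Q x ∉ C) →
        ∃ u ∈ C, ∃ v, orderOf u = 2 ^ (c - 1) ∧ orbSum u v (2 ^ (c - 1)) ≠ 0

section Data

variable {V : Type*} [AddCommGroup V] [Module F V] [FiniteDimensional F V] {Q : QuadraticForm F V}

theorem twoData_one (hQ : (polarBilin Q).Nondegenerate) (hv : ∃ v, Q v ≠ 0) : TwoData Q 1 := by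
  obtain ⟨R, z, hR, hR1, -, -, -⟩ := exists_order_four hQ hv
  refine ⟨⟨R, by rw [pow_one]; exact orderOf_eq_prime hR hR1⟩, fun C _ _ => ?_⟩
  obtain ⟨v, hv⟩ := hv
  refine ⟨1, C.one_mem, v, by simp, ?_⟩
  rw [Nat.sub_self, pow_zero, orbSum, Finset.sum_range_one, pow_zero]
  intro h
  exact hv (by rw [show v = 0 from h, QuadraticMap.map_zero])

theorem twoData_two (hQ : (polarBilin Q).Nondegenerate) (hv : ∃ v, Q v ≠ 0) :
    TwoData (Q.prod (hyp F)) 2 := by
  obtain ⟨R, z, -, -, hS, ho, -⟩ := exists_order_four hQ hv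
  refine ⟨⟨bump R z, by rw [ho]; norm_num⟩, fun C hC _ => ?_⟩
  refine ⟨bump R z ^ 2, ?_, (0, 0, 1), ?_, ?_⟩
  · by_cases h : bump R z ∈ C
    · exact C.pow_mem h 2
    · rw [sq]; exact hC _ _ h h
  · rw [orderOf_pow_of_dvd (by norm_num) (by rw [ho]; norm_num), ho]
    norm_num
  · intro h
    have h1 := congrArg Prod.fst h
    simp only [orbSum, Finset.sum_range_succ, Finset.sum_range_zero, Nat.reduceSub, pow_one,
      pow_zero, zero_add, bump_pow_apply_top, Prod.fst_add, Prod.fst_zero] at h1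
    apply hS
    simpa [orbSum, Finset.sum_range_succ] using h1

theorem orbSum_prodHom {V' : Type*} [AddCommGroup V'] [Module F V'] {Q' : QuadraticForm F V'}
    (g : H5.orth Q) (h : H5.orth Q') (v : V) (v' : V') (N : ℕ) :
    orbSum (prodHom Q Q' (g, h)) (v, v') N = (orbSum g v N, orbSum h v' N) := by
  refine Prod.ext ?_ ?_ <;> simp only [orbSum, Prod.fst_sum, Prod.snd_sum, ← map_pow] <;> rfl

theorem twoData_three [Fintype F] (hQ : (polarBilin Q).Nondegenerate) (hv : ∃ v, Q v ≠ 0) :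
    TwoData ((Q.prod (hyp F)).prod (hyp F)) 3 := by
  obtain ⟨R, z, -, -, -, ho, hS⟩ := exists_order_four hQ hv
  refine ⟨⟨bump (bump R z) (0, 0, 1), ?_⟩, fun C hC hr => ?_⟩
  · exact orderOf_bump _ _ 2 (by rw [show (2 ^ 2 : ℕ) = 4 from rfl, ← ho, pow_orderOf_eq_one])
      (by simpa using hS)
  set A := prodHom (Q.prod (hyp F)) (hyp F) (bump R z, 1)
  set r := H5.refl (hyp F) (1, 1)
  set B := prodHom (Q.prod (hyp F)) (hyp F) (bump R z, r)
  have hor : ∀ h : H5.orth (hyp F), h * h = 1 →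
      orderOf (prodHom (Q.prod (hyp F)) (hyp F) (bump R z, h)) = 4 := fun h hh => by
    rw [orderOf_injective _ prodHom_injective, Prod.orderOf, ho]
    exact Nat.lcm_eq_left ((orderOf_dvd_of_pow_eq_one (by rw [sq, hh])).trans (by norm_num))
  have hsum : ∀ h : H5.orth (hyp F),
      orbSum (prodHom (Q.prod (hyp F)) (hyp F) (bump R z, h)) ((0, 0, 1), 0) 4 ≠ 0 := fun h e =>
    hS (by rw [orbSum_prodHom] at e; exact congrArg Prod.fst e)
  by_cases hA : A ∈ C
  · exact ⟨A, hA, ((0, 0, 1), 0), hor 1 (one_mul 1), hsum 1⟩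
  · refine ⟨B, ?_, ((0, 0, 1), 0), hor r (H5.refl_mul_self _), hsum r⟩
    by_contra hB
    have := hC A⁻¹ B (fun h => hA (inv_inv A ▸ C.inv_mem h)) hB
    rw [← map_inv, ← map_mul, Prod.inv_mk, Prod.mk_mul_mk, inv_mul_cancel, inv_one, one_mul,
      prodHom_refl_right] at this
    exact hr _ (by simp [QuadraticMap.prod_apply]) this

end Data

theorem coprime_of_two {a b c : ℕ} (ha : Odd a) (hac : a ∣ c) (h : b = c + 2 ∨ c = b + 2) :
    a.Coprime b := by
  refine Nat.coprime_of_dvd fun d hd hda hdb => ?_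
  have h2 : d ∣ 2 := by
    rcases h with rfl | rfl
    · exact (Nat.dvd_add_right (hda.trans hac)).1 hdb
    · exact (Nat.dvd_add_right hdb).1 (hda.trans hac)
  obtain rfl := (Nat.prime_dvd_prime_iff_eq hd Nat.prime_two).1 h2
  obtain ⟨k, hk⟩ := ha
  omega

variable [Fintype F]

/-- The realisation statement. -/
def Realised {V : Type*} [AddCommGroup V] [Module F V] (Q : QuadraticForm F V) (e : Fin 12) :
    Prop :=
  (∃ g : H5.orth Q, orderOf g = num (Fintype.card F) e) ∧
    ∃ g ∈ commutator (H5.orth Q),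
      (twoExp e = 0 → orderOf g = oddPart (Fintype.card F) e) ∧
      (twoExp e ≠ 0 → orderOf g = 2 ^ (twoExp e - 1) * oddPart (Fintype.card F) e ∧
        ∃ v, orbSum g v (2 ^ (twoExp e - 1) * oddPart (Fintype.card F) e) ≠ 0)

theorem HasTorus.prod {V V' : Type*} [AddCommGroup V] [Module F V] [AddCommGroup V'] [Module F V']
    {Q : QuadraticForm F V} {Q' : QuadraticForm F V'} {M N : ℕ} (h : HasTorus F V Q M)
    (h' : HasTorus F V' Q' N) (hc : M.Coprime N) : HasTorus F _ (Q.prod Q') (M * N) := by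
  obtain ⟨g, rfl⟩ := h
  obtain ⟨g', rfl⟩ := h'
  exact ⟨prodHom Q Q' (g, g'), by
    rw [orderOf_injective _ prodHom_injective, Prod.orderOf]; exact hc.lcm_eq_mul⟩

section Combine

variable {V T W : Type*} [AddCommGroup V] [Module F V] [FiniteDimensional F V] [AddCommGroup T]
  [Module F T] [FiniteDimensional F T] [AddCommGroup W] [Module F W] [FiniteDimensional F W]
  {Q : QuadraticForm F V} {QT : QuadraticForm F T} {QW : QuadraticForm F W}

theorem orbSum_periodic (u : H5.orth QW) (v : W) {N : ℕ} (hu : u ^ N = 1) {L : ℕ} (hL : Odd L) :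
    orbSum u v (N * L) = orbSum u v N := by
  have h : ∀ j, orbSum u v (N * j) = j • orbSum u v N := by
    intro j
    induction j with
    | zero => simp [orbSum]
    | succ j ih =>
      rw [Nat.mul_succ, orbSum, Finset.sum_range_add, ← orbSum, ih, succ_nsmul]
      congr 1
      refine Finset.sum_congr rfl fun i _ => ?_
      rw [pow_add, pow_mul, hu, one_pow, one_mul]
  obtain ⟨k, rfl⟩ := hL
  rw [h, succ_nsmul, mul_comm 2 k, mul_nsmul', two_nsmul, add_self_vec QW, smul_zero, zero_add]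

theorem index_two (hV : IsMinus Q 4) : (commutator (H5.orth Q)).index = 2 :=
  have : Finite V := Module.finite_of_finite F
  H5.commutator_index_two CharTwo.two_eq_zero hV.1 (Or.inr (by rw [hV.2.1]; norm_num))
    (exists_ne_zero hV.1 hV.2.1 (by norm_num))

theorem mem_commutator_of_odd (hV : IsMinus Q 4) {g : H5.orth Q} (hg : Odd (orderOf g)) :
    g ∈ commutator (H5.orth Q) := by
  obtain ⟨k, hk⟩ := hg
  have : g = (g ^ (k + 1)) ^ 2 := by
    rw [← pow_mul, show (k + 1) * 2 = orderOf g + 1 by omega, pow_succ, pow_orderOf_eq_one, one_mul]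
  rw [this]
  exact Subgroup.sq_mem_of_index_two (index_two hV) _

/-- A torus and two-data combine. -/
theorem realised_of_blocks (hV : IsMinus Q 4) (e : Fin 12) (hc : twoExp e ≠ 0)
    (hprod : IsMinus (QT.prod QW) 4) (hT : HasTorus F T QT (oddPart (Fintype.card F) e))
    (hW : TwoData QW (twoExp e)) : Realised Q e := by
  obtain ⟨ψ, hψ⟩ := hprod.isom hV
  obtain ⟨t, ht⟩ := hT
  let φ : H5.orth QT × H5.orth QW →* H5.orth Q := (transHom ψ hψ).comp (prodHom QT QW)
  have hφ : Function.Injective φ := (transHom_injective ψ hψ).comp prodHom_injective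
  have hodd : Odd (oddPart (Fintype.card F) e) := oddPart_odd card_even Fintype.card_pos e
  have hcop : ∀ n, (oddPart (Fintype.card F) e).Coprime (2 ^ n) := fun n =>
    Nat.Coprime.pow_right n (Nat.coprime_two_right.2 hodd)
  have hord : ∀ u : H5.orth QW, ∀ n, orderOf u = 2 ^ n →
      orderOf (φ (t, u)) = 2 ^ n * oddPart (Fintype.card F) e := fun u n hu => by
    rw [orderOf_injective φ hφ, Prod.orderOf, ht, hu, (hcop n).lcm_eq_mul, mul_comm]
  obtain ⟨⟨u₀, hu₀⟩, hW⟩ := hW
  refine ⟨⟨φ (t, u₀), hord u₀ _ hu₀⟩, ?_⟩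
  let C : Subgroup (H5.orth QW) :=
    (commutator (H5.orth Q)).comap (φ.comp (MonoidHom.inr (H5.orth QT) (H5.orth QW)))
  obtain ⟨u, huC, v, hu, hv⟩ := hW C (fun a b ha hb => by
    simp only [C, Subgroup.mem_comap, map_mul] at ha hb ⊢
    exact (Subgroup.mul_mem_iff_of_index_two (index_two hV)).2 (iff_of_false ha hb))
    (fun x hx hmem => by
      simp only [C, Subgroup.mem_comap, MonoidHom.comp_apply, MonoidHom.inr_apply, φ,
        prodHom_refl_right, transHom_refl] at hmem
      have : Finite V := Module.finite_of_finite F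
      have hQx : Q (ψ (0, x)) ≠ 0 := by
        rw [hψ]; simpa [QuadraticMap.prod_apply] using hx
      rw [H5.mem_commutator_iff hV.1 (Or.inr (by rw [hV.2.1]; norm_num)), H5.dick_refl hV.1 hQx]
        at hmem
      exact absurd hmem.1 (by decide))
  refine ⟨φ (t, u), ?_, fun h => absurd h hc, fun _ => ⟨hord u _ hu, ψ (0, v), ?_⟩⟩
  · have h1 : (t, u) = (t, (1 : H5.orth QW)) * ((1 : H5.orth QT), u) := by simp
    rw [h1, map_mul]
    refine Subgroup.mul_mem _ (mem_commutator_of_odd hV ?_) huC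
    rw [orderOf_injective φ hφ, Prod.orderOf, ht, orderOf_one, Nat.lcm_one_right]
    exact hodd
  · set N := 2 ^ (twoExp e - 1)
    have hsum : ∀ M, orbSum (φ (t, u)) (ψ (0, v)) M = ψ (0, orbSum u v M) := fun M => by
      have h0 : orbSum t (0 : T) M = 0 := Finset.sum_eq_zero fun i _ => map_zero _
      have h1 := congrArg ψ (orbSum_prodHom t u (0 : T) v M)
      rw [h0] at h1
      rw [← h1]
      simp only [orbSum, map_sum, φ, MonoidHom.comp_apply, ← map_pow]
      refine Finset.sum_congr rfl fun i _ => ?_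
      rw [transHom_apply]
    rw [hsum, orbSum_periodic u v (by rw [← hu, pow_orderOf_eq_one]) hodd]
    intro h
    have := (LinearEquiv.map_eq_zero_iff ψ).1 h
    exact hv (congrArg Prod.snd this)

theorem realised_of_odd (hV : IsMinus Q 4) (e : Fin 12) (hc : twoExp e = 0) (hT' : IsMinus QT 4)
    (hT : HasTorus F T QT (oddPart (Fintype.card F) e)) : Realised Q e := by
  obtain ⟨ψ, hψ⟩ := hT'.isom hV
  obtain ⟨t, ht⟩ := hT
  have ho : orderOf (transHom ψ hψ t) = oddPart (Fintype.card F) e := by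
    rw [orderOf_injective _ (transHom_injective ψ hψ), ht]
  refine ⟨⟨_, by rw [num, hc, pow_zero, one_mul]; exact ho⟩, _, mem_commutator_of_odd hV ?_,
    fun _ => ho, fun h => absurd hc h⟩
  rw [ho]
  exact oddPart_odd card_even Fintype.card_pos e

end Combine

/-- All twelve numbers are realised. -/
theorem realised {V : Type*} [AddCommGroup V] [Module F V] [FiniteDimensional F V]
    {Q : QuadraticForm F V} (hV : IsMinus Q 4) (e : Fin 12) : Realised Q e := by
  obtain ⟨p1, t1⟩ := plus_torus (F := F) 1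
  obtain ⟨p2, t2⟩ := plus_torus (F := F) 2
  obtain ⟨p3, t3⟩ := plus_torus (F := F) 3
  have : NeZero (2 * 1) := ⟨by norm_num⟩
  have : NeZero (2 * 2) := ⟨by norm_num⟩
  have : NeZero (2 * 3) := ⟨by norm_num⟩
  have : NeZero (2 * 4) := ⟨by norm_num⟩
  obtain ⟨M1, m1, s1⟩ := minus_torus (F := F) 1
  obtain ⟨M2, m2, s2⟩ := minus_torus (F := F) 2
  obtain ⟨M3, m3, s3⟩ := minus_torus (F := F) 3
  obtain ⟨M4, m4, s4⟩ := minus_torus (F := F) 4
  rw [pow_one] at t1 s1
  have hH := hyp_isPlus (F := F)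
  have vH := exists_ne_zero hH.1 hH.2.1 le_rfl
  have vM := exists_ne_zero m1.1 m1.2.1 le_rfl
  set q := Fintype.card F
  have hq : Even q := card_even
  have h1 : 1 ≤ q := Fintype.card_pos
  have o : ∀ j, Odd (oddPart q j) := oddPart_odd hq h1
  have d31 : q - 1 ∣ q ^ 3 - 1 := by simpa using Nat.sub_dvd_pow_sub_pow q 1 3
  have d32 : q + 1 ∣ q ^ 3 + 1 := by
    simpa using (show Odd 3 by decide).nat_add_dvd_pow_add_pow q 1
  have d21 : q - 1 ∣ q ^ 2 - 1 := by simpa using Nat.sub_dvd_pow_sub_pow q 1 2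
  have d22 : q + 1 ∣ q ^ 2 - 1 := ⟨q - 1, by simpa [mul_comm] using Nat.sq_sub_sq q 1⟩
  have q2 := Nat.one_le_pow 2 q h1
  have q3 := Nat.one_le_pow 3 q h1
  have c2m : (q - 1).Coprime (q ^ 2 + 1) :=
    coprime_of_two (by simpa [oddPart] using o 0) d21 (Or.inl (by omega))
  have c2p : (q + 1).Coprime (q ^ 2 + 1) :=
    coprime_of_two (by simpa [oddPart] using o 1) d22 (Or.inl (by omega))
  fin_cases e
  · exact realised_of_blocks hV 0 (by decide) (IsMinus.plus_prod p1 ((m1.prod_plus hH).prod_plus hH))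
      t1 (twoData_three m1.1 vM)
  · exact realised_of_blocks hV 1 (by decide) (m1.prod_plus ((hH.prod hH).prod hH)) s1
      (twoData_three hH.1 vH)
  · exact realised_of_blocks hV 2 (by decide) (IsMinus.plus_prod p2 (m1.prod_plus hH)) t2
      (twoData_two m1.1 vM)
  · exact realised_of_blocks hV 3 (by decide) (m2.prod_plus (hH.prod hH)) s2 (twoData_two hH.1 vH)
  · exact realised_of_blocks hV 4 (by decide) (IsMinus.plus_prod p3 m1) t3 (twoData_one m1.1 vM)
  · exact realised_of_blocks hV 5 (by decide) (m3.prod_plus hH) s3 (twoData_one hH.1 vH)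
  · exact realised_of_blocks hV 6 (by decide) ((m2.prod_plus p1).prod_plus hH)
      (s2.prod t1 c2m.symm) (twoData_one hH.1 vH)
  · refine realised_of_blocks hV 7 (by decide) ?_ (s2.prod s1 c2p.symm) (twoData_one m1.1 vM)
    obtain ⟨hn, hd, hs⟩ := m2.prod_plus (m1.prod_same m1)
    refine ⟨H67.prod_nondegenerate (H67.prod_nondegenerate m2.1 m1.1) m1.1,
      by rw [finrank_prod, finrank_prod, m2.2.1, m1.2.1], fun h => hs ?_⟩
    exact h.of_isom (LinearEquiv.prodAssoc F _ _ _) (fun v => by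
      simp [QuadraticMap.prod_apply, add_assoc])
  · exact realised_of_odd hV 8 rfl m4 s4
  · refine realised_of_odd hV 9 rfl (IsMinus.plus_prod p2 m2) ?_
    have e9 : oddPart q 9 = (q ^ 2 - 1) * (q ^ 2 + 1) := by
      rw [mul_comm, ← Nat.sq_sub_sq, ← pow_mul, one_pow]; rfl
    rw [e9]
    exact t2.prod s2 (coprime_of_two (by simpa [oddPart] using o 2) dvd_rfl (Or.inl (by omega)))
  · exact realised_of_odd hV 10 rfl (IsMinus.plus_prod p3 m1)
      (t3.prod s1 (coprime_of_two (by simpa [oddPart] using o 1) d32 (Or.inr (by omega))).symm)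
  · exact realised_of_odd hV 11 rfl (m3.prod_plus p1)
      (s3.prod t1 (coprime_of_two (by simpa [oddPart] using o 0) d31 (Or.inl (by omega))).symm)

end Cfsg.Agent.H9.Iso8
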