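import Mathlib

/-!
Eight non-zero roots closed under inversion and under the `q`-th power map: one of twelve numbers
controls their orders and multiplicities.
-/

set_option autoImplicit false
set_option linter.unusedSectionVars false

namespace Cfsg.Agent.H9.Iso8

/-- The degree of a type of root. -/
def deg : Fin 8 → ℕ := ![1, 1, 2, 2, 3, 3, 4, 4]

/-- Whether the root is fixed (rather than inverted) by the corresponding power map. -/
def plus : Fin 8 → Bool := ![true, false, true, false, true, false, true, false]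

/-- The modulus of a type. -/
def mdl (q : ℕ) (t : Fin 8) : ℕ := if plus t then q ^ deg t - 1 else q ^ deg t + 1

/-- The odd part of the twelve numbers. -/
def oddPart (q : ℕ) : Fin 12 → ℕ :=
  ![q - 1, q + 1, q ^ 2 - 1, q ^ 2 + 1, q ^ 3 - 1, q ^ 3 + 1, (q ^ 2 + 1) * (q - 1),
    (q ^ 2 + 1) * (q + 1), q ^ 4 + 1, q ^ 4 - 1, (q ^ 3 - 1) * (q + 1), (q ^ 3 + 1) * (q - 1)]

/-- The exponent of two. -/
def twoExp : Fin 12 → ℕ := ![3, 3, 2, 2, 1, 1, 1, 1, 0, 0, 0, 0]

/-- The types allowed by each of the twelve numbers. -/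
def cap : Fin 12 → List (Fin 8) :=
  ![[0], [1], [0, 1, 2], [3], [4, 0], [5, 1], [3, 0], [3, 1], [7], [0, 1, 2, 3, 6], [4, 0, 1],
    [5, 0, 1]]

/-- The twelve numbers. -/
def num (q : ℕ) (e : Fin 12) : ℕ := 2 ^ twoExp e * oddPart q e

theorem mdl_dvd {q : ℕ} {e : Fin 12} {t : Fin 8} (h : t ∈ cap e) : mdl q t ∣ oddPart q e := by
  have h21 : q - 1 ∣ q ^ 2 - 1 := Nat.sub_dvd_pow_sub_pow q 1 2 |> fun h => by simpa using h
  have h22 : q + 1 ∣ q ^ 2 - 1 := ⟨q - 1, by
    have := Nat.sq_sub_sq q 1; simpa [mul_comm] using this⟩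
  have h31 : q - 1 ∣ q ^ 3 - 1 := by simpa using Nat.sub_dvd_pow_sub_pow q 1 3
  have h32 : q + 1 ∣ q ^ 3 + 1 := by
    simpa using (show Odd 3 by decide).nat_add_dvd_pow_add_pow q 1
  have h42 : q ^ 2 - 1 ∣ q ^ 4 - 1 := by
    have := Nat.sub_dvd_pow_sub_pow (q ^ 2) 1 2
    rwa [one_pow, ← pow_mul] at this
  have h43 : q ^ 2 + 1 ∣ q ^ 4 - 1 := ⟨q ^ 2 - 1, by
    have := Nat.sq_sub_sq (q ^ 2) 1; rw [one_pow, ← pow_mul] at this; exact this⟩
  fin_cases e <;> fin_cases t <;> simp [cap] at h ⊢ <;>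
    simp [mdl, plus, deg, oddPart, h21, h22, h21.trans h42, h22.trans h42, h42, h43,
      h31.mul_right, h31, h32, dvd_mul_right, dvd_mul_left, h32.mul_right]

/-- Whether some number allows the configuration. -/
def okConf (a : ℕ) (m : List ℕ) : Bool :=
  (List.finRange 12).any fun e =>
    decide (2 * a ≤ 2 ^ twoExp e) && (List.finRange 8).all fun t =>
      decide (m.getD t.val 0 ≤ 2 ^ twoExp e) && (decide (m.getD t.val 0 = 0) || decide (t ∈ cap e))

/-- All configurations of total weight at most four. -/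
def allConf : Bool :=
  (List.range 5).all fun a => (List.range (5 - a)).all fun m0 =>
  (List.range (5 - a - m0)).all fun m1 => (List.range ((4 - a - m0 - m1) / 2 + 1)).all fun m2 =>
  (List.range ((4 - a - m0 - m1 - 2 * m2) / 2 + 1)).all fun m3 =>
  (List.range ((4 - a - m0 - m1 - 2 * m2 - 2 * m3) / 3 + 1)).all fun m4 =>
  (List.range ((4 - a - m0 - m1 - 2 * m2 - 2 * m3 - 3 * m4) / 3 + 1)).all fun m5 =>
  (List.range ((4 - a - m0 - m1 - 2 * m2 - 2 * m3 - 3 * m4 - 3 * m5) / 4 + 1)).all fun m6 =>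
  (List.range ((4 - a - m0 - m1 - 2 * m2 - 2 * m3 - 3 * m4 - 3 * m5 - 4 * m6) / 4 + 1)).all
    fun m7 => okConf a [m0, m1, m2, m3, m4, m5, m6, m7]

theorem allConf_eq : allConf = true := by decide +kernel

theorem exists_num (a : ℕ) (m : Fin 8 → ℕ) (h : a + ∑ t, deg t * m t ≤ 4) :
    ∃ e : Fin 12, 2 * a ≤ 2 ^ twoExp e ∧
      ∀ t, m t ≤ 2 ^ twoExp e ∧ (m t = 0 ∨ t ∈ cap e) := by
  simp only [Fin.sum_univ_eight, deg] at h
  simp only [Matrix.cons_val_zero, Matrix.cons_val_one, Matrix.cons_val] at h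
  have h0 := allConf_eq
  simp only [allConf, List.all_eq_true, List.mem_range] at h0
  have := h0 a (by omega) (m 0) (by omega) (m 1) (by omega) (m 2) (by omega) (m 3) (by omega)
    (m 4) (by omega) (m 5) (by omega) (m 6) (by omega) (m 7) (by omega)
  simp only [okConf, List.any_eq_true, Bool.and_eq_true, decide_eq_true_eq, List.all_eq_true,
    Bool.or_eq_true] at this
  obtain ⟨e, -, ha, he⟩ := this
  refine ⟨e, ha, fun t => ?_⟩
  have := he t (List.mem_finRange t)
  fin_cases t <;> simpa using this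

section Roots

variable {K : Type*} [Field K] [DecidableEq K]

/-- The `q ^ j` th power of `x` is `x` or its inverse. -/
def Hit (q j : ℕ) (x : K) : Prop := x ^ q ^ j = x ∨ x ^ q ^ j = x⁻¹

/-- The root has the given type. -/
def IsT (q : ℕ) (t : Fin 8) (x : K) : Prop :=
  x ≠ 1 ∧ (∀ j, 1 ≤ j → j < deg t → ¬ Hit q j x) ∧
    x ^ q ^ deg t = if plus t then x else x⁻¹

/-- The conjugates of a root. -/
def conjRoot (q : ℕ) (x : K) (i : ℕ) (b : Bool) : K := if b then x ^ q ^ i else (x ^ q ^ i)⁻¹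

variable {q : ℕ}

theorem conjRoot_pow (x : K) (i j : ℕ) (b : Bool) :
    conjRoot q x i b ^ q ^ j = conjRoot q x (i + j) b := by
  cases b <;> simp [conjRoot, inv_pow, ← pow_mul, ← pow_add]

theorem inv_eq_self_iff (h2 : (2 : K) = 0) {x : K} (hx : x ≠ 0) : x⁻¹ = x ↔ x = 1 := by
  constructor
  · intro h
    have h1 : x * x = 1 := by
      nth_rw 1 [← h]
      exact inv_mul_cancel₀ hx
    have : (x - 1) * (x - 1) = 0 := by linear_combination h1 - (x - 1) * h2
    exact sub_eq_zero.1 (mul_self_eq_zero.1 this)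
  · rintro rfl
    exact inv_one

theorem pow_inj (hinj : Function.Injective fun x : K => x ^ q) (i : ℕ) :
    Function.Injective fun x : K => x ^ q ^ i := by
  induction i with
  | zero => intro x y h; simpa using h
  | succ i ih =>
    intro x y h
    refine ih (hinj ?_)
    simpa [pow_succ, pow_mul] using h

theorem conjRoot_ne_one (hinj : Function.Injective fun x : K => x ^ q) {x : K} (hx : x ≠ 1)
    (i : ℕ) (b : Bool) : conjRoot q x i b ≠ 1 := by
  have h : x ^ q ^ i ≠ 1 := fun h => hx (pow_inj hinj i (by simpa using h))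
  cases b
  · simpa [conjRoot] using h
  · simpa [conjRoot] using h

theorem hit_conjRoot (hinj : Function.Injective fun x : K => x ^ q) (x : K) (i j : ℕ) (b : Bool) :
    (conjRoot q x i b ^ q ^ j = conjRoot q x i b ↔ x ^ q ^ j = x) ∧
      (conjRoot q x i b ^ q ^ j = (conjRoot q x i b)⁻¹ ↔ x ^ q ^ j = x⁻¹) := by
  have e : x ^ q ^ (i + j) = (x ^ q ^ j) ^ q ^ i := by rw [← pow_mul, ← pow_add, add_comm]
  have hi := pow_inj hinj i
  have e' : (x ^ q ^ i)⁻¹ = x⁻¹ ^ q ^ i := (inv_pow x _).symm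
  rw [conjRoot_pow]
  cases b <;> simp only [conjRoot, Bool.false_eq_true, if_false, if_true, e]
  · exact ⟨inv_inj.trans hi.eq_iff, by rw [inv_inj, e']; exact hi.eq_iff⟩
  · exact ⟨hi.eq_iff, by rw [e']; exact hi.eq_iff⟩

theorem isT_conjRoot (hinj : Function.Injective fun x : K => x ^ q) {t : Fin 8} {x : K}
    (h : IsT q t x) (i : ℕ) (b : Bool) : IsT q t (conjRoot q x i b) := by
  obtain ⟨h1, hj, hd⟩ := h
  refine ⟨conjRoot_ne_one hinj h1 i b, fun j a c hh => hj j a c ?_, ?_⟩
  · obtain ⟨e1, e2⟩ := hit_conjRoot hinj x i j b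
    exact hh.imp e1.1 e2.1
  · obtain ⟨e1, e2⟩ := hit_conjRoot hinj x i (deg t) b
    cases hp : plus t <;> simp only [hp, Bool.false_eq_true, if_false, if_true] at hd ⊢
    exacts [e2.2 hd, e1.2 hd]

theorem isT_unique (h2 : (2 : K) = 0) {t t' : Fin 8} {x : K} (hx0 : x ≠ 0) (h : IsT q t x)
    (h' : IsT q t' x) : t = t' := by
  have hd : deg t = deg t' := by
    by_contra hne
    have hpos : ∀ u : Fin 8, 1 ≤ deg u := by decide
    rcases Nat.lt_or_gt_of_ne hne with hlt | hlt
    · refine h'.2.1 _ (hpos t) hlt ?_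
      have := h.2.2
      split_ifs at this
      exacts [Or.inl this, Or.inr this]
    · refine h.2.1 _ (hpos t') hlt ?_
      have := h'.2.2
      split_ifs at this
      exacts [Or.inl this, Or.inr this]
  have hp : plus t = plus t' := by
    have e := h.2.2
    rw [hd, h'.2.2] at e
    by_contra hne
    cases hpt : plus t <;> cases hpt' : plus t' <;> simp [hpt, hpt'] at e hne
    · exact h.1 ((inv_eq_self_iff h2 hx0).1 e.symm)
    · exact h.1 ((inv_eq_self_iff h2 hx0).1 e)
  have key : ∀ u u' : Fin 8, deg u = deg u' → plus u = plus u' → u = u' := by decide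
  exact key t t' hd hp

theorem conjRoot_injective (h2 : (2 : K) = 0) (hinj : Function.Injective fun x : K => x ^ q)
    {x : K} (hx0 : x ≠ 0) (hx : x ≠ 1) {D : ℕ} (hD : ∀ j, 1 ≤ j → j < D → ¬ Hit q j x)
    {i k : ℕ} (hi : i < D) (hk : k < D) {b c : Bool}
    (h : conjRoot q x i b = conjRoot q x k c) : i = k ∧ b = c := by
  wlog hle : i ≤ k generalizing i k b c
  · exact ((this hk hi h.symm (le_of_not_ge hle))).imp Eq.symm Eq.symm
  obtain ⟨j, rfl⟩ := Nat.exists_eq_add_of_le hle
  have e : conjRoot q x (i + j) c = conjRoot q (conjRoot q x j c) i true := by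
    rw [show conjRoot q (conjRoot q x j c) i true = conjRoot q x j c ^ q ^ i from rfl,
      conjRoot_pow, add_comm]
  have e' : conjRoot q x i b = conjRoot q (conjRoot q x 0 b) i true := by
    rw [show conjRoot q (conjRoot q x 0 b) i true = conjRoot q x 0 b ^ q ^ i from rfl,
      conjRoot_pow, zero_add]
  rw [e, e'] at h
  have h0 : conjRoot q x 0 b = conjRoot q x j c := pow_inj hinj i h
  rcases Nat.eq_zero_or_pos j with rfl | hj
  · refine ⟨rfl, ?_⟩
    cases b <;> cases c <;> simp [conjRoot] at h0 ⊢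
    · exact hx ((inv_eq_self_iff h2 hx0).1 h0)
    · exact hx ((inv_eq_self_iff h2 hx0).1 h0.symm)
  · exfalso
    refine hD j hj (by omega) ?_
    cases b <;> cases c <;> simp [conjRoot] at h0
    · exact Or.inl h0.symm
    · exact Or.inr h0.symm
    · exact Or.inr (inv_injective (by rw [inv_inv]; exact h0.symm))
    · exact Or.inl h0.symm

theorem pow_mdl (hq : 1 ≤ q) {t : Fin 8} {x : K} (hx0 : x ≠ 0) (h : IsT q t x) :
    x ^ mdl q t = 1 := by
  have e := h.2.2
  cases hp : plus t <;> simp only [hp, Bool.false_eq_true, if_false, if_true, mdl] at e ⊢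
  · rw [pow_succ, e, inv_mul_cancel₀ hx0]
  · refine mul_right_cancel₀ hx0 ?_
    rw [← pow_succ, Nat.sub_add_cancel (Nat.one_le_pow _ _ hq), e, one_mul]

/-- The control of the roots. -/
theorem exists_num_roots (h2 : (2 : K) = 0) (hq : 1 ≤ q)
    (hinj : Function.Injective fun x : K => x ^ q) (s : Multiset K) (h8 : s.card = 8)
    (h0 : (0 : K) ∉ s) (hinv : s.map (fun x => x⁻¹) = s) (hpow : s.map (fun x => x ^ q) = s) :
    ∃ e : Fin 12, ∀ x ∈ s, x ^ oddPart q e = 1 ∧ s.count x ≤ 2 ^ twoExp e := by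
  classical
  have hne : ∀ x ∈ s, x ≠ 0 := fun x hx h => h0 (h ▸ hx)
  have hcinv : ∀ x, s.count x⁻¹ = s.count x := fun x => by
    conv_lhs => rw [← hinv]
    exact Multiset.count_map_eq_count' _ s inv_injective x
  have hcpow : ∀ i x, s.count (x ^ q ^ i) = s.count x := by
    intro i
    induction i with
    | zero => simp
    | succ i ih =>
      intro x
      rw [pow_succ, pow_mul]
      conv_lhs => rw [← hpow]
      exact (Multiset.count_map_eq_count' _ s hinj _).trans (ih x)
  have hcconj : ∀ x i b, s.count (conjRoot q x i b) = s.count x := fun x i b => by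
    cases b <;> simp [conjRoot, hcinv, hcpow]
  have hsum : ∀ U : Finset K, ∑ u ∈ U, s.count u ≤ 8 := by
    intro U
    calc ∑ u ∈ U, s.count u ≤ ∑ u ∈ U ∪ s.toFinset, s.count u :=
          Finset.sum_le_sum_of_subset Finset.subset_union_left
      _ = s.card := Multiset.sum_count_eq_card (fun a ha => Finset.mem_union_right _
          (Multiset.mem_toFinset.2 ha))
      _ = 8 := h8
  have htype : ∀ x ∈ s, x ≠ 1 → ∃ t, IsT q t x := by
    intro x hx hx1
    have hex : ∃ j, 1 ≤ j ∧ j < 5 ∧ Hit q j x := by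
      by_contra hno
      push Not at hno
      let f : Fin 5 × Bool → K := fun p => conjRoot q x p.1 p.2
      have hf : Function.Injective f := fun p p' h => by
        obtain ⟨h1, h2'⟩ := conjRoot_injective h2 hinj (hne x hx) hx1 hno p.1.2 p'.1.2 h
        exact Prod.ext (Fin.ext h1) h2'
      have := hsum (Finset.univ.image f)
      rw [Finset.sum_image (fun a _ b _ h => hf h)] at this
      simp only [f, hcconj, Finset.sum_const, Finset.card_univ, Fintype.card_prod, Fintype.card_fin,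
        Fintype.card_bool, smul_eq_mul] at this
      have h1 : 1 ≤ s.count x := Multiset.one_le_count_iff_mem.2 hx
      omega
    obtain ⟨hj1, hj5, hh⟩ := Nat.find_spec hex
    have hmin : ∀ i, 1 ≤ i → i < Nat.find hex → ¬ Hit q i x := fun i a b h =>
      Nat.find_min hex b ⟨a, by omega, h⟩
    generalize Nat.find hex = j at hj1 hj5 hh hmin
    rcases hh with h | h
    · exact ⟨⟨2 * (j - 1), by omega⟩, hx1, by
        interval_cases j <;> simpa [deg] using hmin, by
        interval_cases j <;> simpa [deg, plus] using h⟩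
    · exact ⟨⟨2 * (j - 1) + 1, by omega⟩, hx1, by
        interval_cases j <;> simpa [deg] using hmin, by
        interval_cases j <;> simpa [deg, plus] using h⟩
  let P : Fin 8 → Finset K := fun t => s.toFinset.filter (IsT q t)
  let m : Fin 8 → ℕ := fun t => (P t).sup fun x => s.count x
  have hm : ∀ t x, x ∈ s → IsT q t x → s.count x ≤ m t := fun t x hx ht =>
    Finset.le_sup (f := fun x => s.count x) (Finset.mem_filter.2 ⟨Multiset.mem_toFinset.2 hx, ht⟩)
  have hrep : ∀ t, ∃ x : K, m t ≠ 0 → x ∈ s ∧ IsT q t x ∧ s.count x = m t := by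
    intro t
    by_cases hP : (P t).Nonempty
    · obtain ⟨x, hx, hxe⟩ := Finset.exists_mem_eq_sup _ hP (fun x => s.count x)
      obtain ⟨hxs, hxt⟩ := Finset.mem_filter.1 hx
      exact ⟨x, fun _ => ⟨Multiset.mem_toFinset.1 hxs, hxt, hxe.symm⟩⟩
    · exact ⟨0, fun h => absurd (by simp [m, Finset.not_nonempty_iff_eq_empty.1 hP]) h⟩
  choose rep hrep using hrep
  let f : (Σ t : Fin 8, Fin (deg t) × Bool) → K := fun p => conjRoot q (rep p.1) p.2.1 p.2.2
  let S : Finset (Σ t : Fin 8, Fin (deg t) × Bool) := Finset.univ.filter fun p => m p.1 ≠ 0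
  have hfinj : Set.InjOn f S := by
    rintro ⟨t, i, b⟩ hp ⟨t', i', b'⟩ hp' heq
    obtain ⟨hs, ht, -⟩ := hrep t (by simpa [S] using hp)
    obtain ⟨hs', ht', -⟩ := hrep t' (by simpa [S] using hp')
    have h1 : IsT q t (f ⟨t, i, b⟩) := isT_conjRoot hinj ht i b
    have h1' : IsT q t' (f ⟨t, i, b⟩) := heq ▸ isT_conjRoot hinj ht' i' b'
    have hf0 : f ⟨t, i, b⟩ ≠ 0 := by
      cases b <;> simp [f, conjRoot, hne _ hs]
    obtain rfl := isT_unique h2 hf0 h1 h1'
    obtain ⟨e1, e2⟩ := conjRoot_injective h2 hinj (hne _ hs) ht.1 ht.2.1 i.2 i'.2 heq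
    obtain rfl : i = i' := Fin.ext e1
    obtain rfl : b = b' := e2
    rfl
  have htot := hsum (insert 1 (S.image f))
  rw [Finset.sum_insert, Finset.sum_image hfinj] at htot
  swap
  · intro h
    obtain ⟨⟨t, i, b⟩, hp, heq⟩ := Finset.mem_image.1 h
    exact conjRoot_ne_one hinj (hrep t (by simpa [S] using hp)).2.1.1 i b heq
  have hS : ∑ p ∈ S, s.count (f p) = ∑ t, 2 * (deg t * m t) := by
    have : ∀ p ∈ S, s.count (f p) = m p.1 := fun p hp => by
      rw [hcconj]; exact (hrep p.1 (by simpa [S] using hp)).2.2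
    rw [Finset.sum_congr rfl this, Finset.sum_filter_ne_zero, Fintype.sum_sigma]
    refine Finset.sum_congr rfl fun t _ => ?_
    simp [mul_comm, mul_assoc, mul_left_comm]
  rw [hS, ← Finset.mul_sum] at htot
  obtain ⟨e, ha, he⟩ := exists_num ((s.count 1 + 1) / 2) m (by omega)
  refine ⟨e, fun x hx => ?_⟩
  by_cases hx1 : x = 1
  · subst hx1
    exact ⟨one_pow _, by omega⟩
  · obtain ⟨t, ht⟩ := htype x hx hx1
    have h1 := hm t x hx ht
    have h1' : 1 ≤ s.count x := Multiset.one_le_count_iff_mem.2 hx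
    obtain ⟨hmc, hcap⟩ := he t
    obtain ⟨k, hk⟩ := mdl_dvd (q := q) (hcap.resolve_left (by omega))
    exact ⟨by rw [hk, pow_mul, pow_mdl hq (hne x hx) ht, one_pow], by omega⟩

end Roots

end Cfsg.Agent.H9.Iso8
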